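import Cfsg.Agent.Lib.Geometric.Basic

/-!
The subspace of vectors all of whose transvections lie in a given subgroup.
-/

namespace CfsgLib.Geometric

open Matrix

variable {ι : Type} [Fintype ι] [DecidableEq ι] {F : Type*} [Field F]

/-- All transvections with centre `x` lie in `M`. -/
def FullCentre (M : Subgroup (GL ι F)) (x : ι → F) : Prop :=
  ∀ (φ : (ι → F) →ₗ[F] F) (h : φ x = 0), tv x φ h ∈ M

lemma fullCentre_ap {M : Subgroup (GL ι F)} {m : GL ι F} (hm : m ∈ M) {x : ι → F}
    (hx : FullCentre M x) : FullCentre M (ap m x) := by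
  intro φ h
  have hψ : (φ.comp (apEquiv m).toLinearMap) x = 0 := h
  have h2 := mul_mem (mul_mem hm (hx _ hψ)) (inv_mem hm)
  rw [conj_tv] at h2
  convert h2 using 2
  exact LinearMap.ext fun y => by simp [ap_ap_inv]

lemma fullCentre_zero (M : Subgroup (GL ι F)) : FullCentre M (0 : ι → F) := fun φ h => by
  have : tv 0 φ h = 1 := gl_ext fun y => by simp
  rw [this]
  exact one_mem M

lemma fullCentre_smul {M : Subgroup (GL ι F)} {x : ι → F} (hx : FullCentre M x) (c : F) :
    FullCentre M (c • x) := by
  intro φ h
  by_cases hc : c = 0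
  · subst hc
    have : tv ((0 : F) • x) φ h = 1 := gl_ext fun y => by simp
    rw [this]; exact one_mem M
  have hψ : (c • φ) x = 0 := by simpa [hc] using h
  rw [tv_eq_tv (w := x) h hψ fun y => by simp [smul_smul, mul_comm]]
  exact hx _ _

lemma fullCentre_add {M : Subgroup (GL ι F)} {x y : ι → F} (hx : FullCentre M x)
    (hy : FullCentre M y) : FullCentre M (x + y) := by
  by_cases hdep : x ∈ Submodule.span F {y}
  · obtain ⟨c, rfl⟩ := Submodule.mem_span_singleton.mp hdep
    rw [show c • y + y = (c + 1) • y by rw [add_smul, one_smul]]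
    exact fullCentre_smul hy _
  obtain ⟨φ, hφ, hφx⟩ := exists_functional_eq_one hdep
  have h := fullCentre_ap (hy φ (hφ y (Submodule.mem_span_singleton_self y))) hx
  rwa [ap_tv, hφx, one_smul] at h

/-- The full centres form a subspace. -/
def centreSubmodule (M : Subgroup (GL ι F)) : Submodule F (ι → F) where
  carrier := {x | FullCentre M x}
  add_mem' := fullCentre_add
  zero_mem' := fullCentre_zero M
  smul_mem' c _ hx := fullCentre_smul hx c

/-- If the centres with every transvection in `M` span, then `M` contains the special linear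
group. -/
theorem specialLinear_le_of_fullCentre {M : Subgroup (GL ι F)} {S : Set (ι → F)}
    (hS : Submodule.span F S = ⊤) (hM : ∀ x ∈ S, FullCentre M x) :
    Cfsg.Geo.specialLinear ι F ≤ M := by
  refine specialLinear_le_of_tv_mem fun v φ h => ?_
  have hle : Submodule.span F S ≤ centreSubmodule M := Submodule.span_le.mpr hM
  exact hle (hS ▸ Submodule.mem_top (x := v)) φ h

/-- Functionals form an additive subgroup at a fixed centre. -/
lemma tv_mem_sum {M : Subgroup (GL ι F)} {κ : Type*} (s : Finset κ) (v : ι → F)
    (φ : κ → (ι → F) →ₗ[F] F) (h0 : ∀ k, φ k v = 0)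
    (hM : ∀ k ∈ s, tv v (φ k) (h0 k) ∈ M) :
    tv v (∑ k ∈ s, φ k) (by simp [LinearMap.sum_apply, h0]) ∈ M := by
  classical
  induction s using Finset.induction_on with
  | empty =>
    have : tv v (∑ k ∈ (∅ : Finset κ), φ k) (by simp) = 1 := gl_ext fun y => by simp
    rw [this]; exact one_mem M
  | insert k s hk ih =>
    have := mul_mem (hM k (Finset.mem_insert_self k s))
      (ih fun l hl => hM l (Finset.mem_insert_of_mem hl))
    rw [tv_add] at this
    convert this using 2
    rw [Finset.sum_insert hk]

end CfsgLib.Geometric
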