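import Cfsg.Agent.Lib.Geometric.Basic

/-!
Components along a direct-sum decomposition of `ι → F`, and the subgroup preserving the number of
non-zero components read in the field.
-/

namespace CfsgLib.Geometric

open Matrix

variable {ι : Type} [Fintype ι] [DecidableEq ι] {F : Type*} [Field F]
variable {t k : ℕ} {D : Fin t → Submodule F (ι → F)}

namespace Decomp

omit [DecidableEq ι] in
lemma isCompl (hD : Cfsg.Geo.IsMDecomposition k D) (i : Fin t) :
    IsCompl (D i) (⨆ (j) (_ : j ≠ i), D j) := by
  refine ⟨hD.indep i, codisjoint_iff.mpr (eq_top_iff.mpr ?_)⟩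
  rw [← hD.iSup_eq_top]
  refine iSup_le fun j => ?_
  by_cases h : j = i
  · exact h ▸ le_sup_left
  · exact (le_iSup₂_of_le (f := fun l (_ : l ≠ i) => D l) j h le_rfl).trans le_sup_right

/-- The component in the member `i`. -/
noncomputable def comp (hD : Cfsg.Geo.IsMDecomposition k D) (i : Fin t) :
    (ι → F) →ₗ[F] (ι → F) :=
  (D i).subtype.comp ((D i).projectionOnto _ (isCompl hD i))

variable (hD : Cfsg.Geo.IsMDecomposition k D)
include hD

lemma comp_mem (i : Fin t) (x : ι → F) : comp hD i x ∈ D i :=
  ((D i).projectionOnto _ (isCompl hD i) x).2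

lemma comp_of_mem {i j : Fin t} {x : ι → F} (hx : x ∈ D j) :
    comp hD i x = if i = j then x else 0 := by
  split_ifs with h
  · subst h
    exact congrArg Subtype.val (Submodule.projectionOnto_apply_left (isCompl hD i) ⟨x, hx⟩)
  · have hx' : x ∈ ⨆ (l) (_ : l ≠ i), D l :=
      (le_iSup₂_of_le (f := fun l (_ : l ≠ i) => D l) j (Ne.symm h) le_rfl) hx
    simp [comp, -ne_eq, Submodule.projectionOnto_apply_of_mem_right (isCompl hD i) hx']

lemma sum_comp (x : ι → F) : ∑ i, comp hD i x = x := by
  have h : (⊤ : Submodule F (ι → F)) ≤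
      LinearMap.eqLocus (∑ i, comp hD i) LinearMap.id := by
    rw [← hD.iSup_eq_top]
    refine iSup_le fun j y hy => ?_
    simp [LinearMap.mem_eqLocus, LinearMap.sum_apply, comp_of_mem hD hy]
  simpa [LinearMap.mem_eqLocus, LinearMap.sum_apply] using h (Submodule.mem_top (x := x))

lemma comp_sum_of_mem (z : Fin t → ι → F) (hz : ∀ l, z l ∈ D l) (i : Fin t) :
    comp hD i (∑ l, z l) = z i := by
  simp [map_sum, fun l => comp_of_mem hD (i := i) (hz l)]

lemma ext_comp {x y : ι → F} (h : ∀ i, comp hD i x = comp hD i y) : x = y := by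
  rw [← sum_comp hD x, ← sum_comp hD y]
  exact Finset.sum_congr rfl fun i _ => h i

lemma exists_ne_zero_mem (i : Fin t) : ∃ u ∈ D i, u ≠ 0 :=
  Submodule.exists_mem_ne_zero_of_ne_bot fun h => by
    have := hD.finrank_eq i
    rw [h, finrank_bot] at this
    exact absurd hD.pos (by omega)

/-- The dimension is the number of members times their dimension. -/
lemma card_le : Fintype.card ι ≤ t * k := by
  let Φ : (ι → F) →ₗ[F] ((i : Fin t) → D i) :=
    LinearMap.pi fun i => (D i).projectionOnto _ (isCompl hD i)
  have hinj : Function.Injective Φ := fun x y h => ext_comp hD fun i => by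
    simpa [Φ, comp] using congrArg Subtype.val (congrFun h i)
  have := LinearMap.finrank_le_finrank_of_injective hinj
  simpa [Module.finrank_fintype_fun_eq_card, Module.finrank_pi_fintype, hD.finrank_eq] using this

/-- The indicator of a non-zero component. -/
noncomputable def ind (i : Fin t) (x : ι → F) : F :=
  letI := Classical.decEq (ι → F)
  if comp hD i x = 0 then 0 else 1

/-- The number of non-zero components, read in the field. -/
noncomputable def weight (x : ι → F) : F := ∑ i, ind hD i x

lemma ind_of_mem {i j : Fin t} {x : ι → F} (hx : x ∈ D j) (hx0 : x ≠ 0) :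
    ind hD i x = if i = j then 1 else 0 := by
  classical
  simp only [ind, comp_of_mem hD hx]
  by_cases h : i = j <;> simp [h, hx0]

lemma weight_of_mem {j : Fin t} {x : ι → F} (hx : x ∈ D j) (hx0 : x ≠ 0) :
    weight hD x = 1 := by
  simp [weight, ind_of_mem hD hx hx0]

lemma weight_add_of_mem {i j : Fin t} (hij : i ≠ j) {x y : ι → F} (hx : x ∈ D i) (hy : y ∈ D j)
    (hx0 : x ≠ 0) (hy0 : y ≠ 0) : weight hD (x + y) = 1 + 1 := by
  classical
  have h : ∀ l, ind hD l (x + y) = (if l = i then 1 else 0) + (if l = j then 1 else 0) := by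
    intro l
    simp only [ind, map_add, comp_of_mem hD hx, comp_of_mem hD hy]
    by_cases h1 : l = i
    · subst h1; simp [hij, hx0]
    · by_cases h2 : l = j
      · subst h2; simp [h1, hy0]
      · simp [h1, h2]
  simp [weight, h, Finset.sum_add_distrib]

/-- The stabiliser of the decomposition preserves the weight. -/
theorem decompStab_le : Cfsg.Geo.decompositionStabilizer D ≤ Cfsg.isometryGroup F (weight hD) := by
  intro g hg u v
  change weight hD (ap g u) = weight hD u
  obtain ⟨σ, hσ⟩ := hg
  have hmem : ∀ l, ap g (comp hD l u) ∈ D (σ l) := fun l => by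
    rw [← hσ l]; exact ⟨_, comp_mem hD l u, rfl⟩
  have hc : ∀ l, comp hD (σ l) (ap g u) = ap g (comp hD l u) := by
    intro l
    have : ap g u = ∑ r, ap g (comp hD (σ.symm r) u) := by
      rw [Equiv.sum_comp σ.symm (fun r => ap g (comp hD r u))]
      conv_lhs => rw [← sum_comp hD u]
      exact map_sum (apEquiv g) _ _
    rw [this, comp_sum_of_mem hD _ (fun r => by simpa using hmem (σ.symm r))]
    simp
  classical
  unfold weight
  refine (Equiv.sum_comp σ _).symm.trans (Finset.sum_congr rfl fun l _ => ?_)
  simp only [ind, hc l]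
  by_cases h : comp hD l u = 0
  · simp [h, ap_zero]
  · simp [h, ap_ne_zero g h]

/-- The weight is unchanged when the components outside `A` are and the total inside `A` is. -/
lemma weight_eq_of_eqOn {x y : ι → F} (A : Finset (Fin t))
    (hout : ∀ l ∉ A, comp hD l x = comp hD l y)
    (hin : ∑ l ∈ A, ind hD l x = ∑ l ∈ A, ind hD l y) : weight hD x = weight hD y := by
  classical
  rw [weight, weight, ← Finset.sum_add_sum_compl A, ← Finset.sum_add_sum_compl A, hin]
  congr 1
  refine Finset.sum_congr rfl fun l hl => ?_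
  simp [ind, hout l (Finset.mem_compl.mp hl)]

lemma not_mem_decompStab {g : GL ι F} {i a b : Fin t} (hab : a ≠ b) {x : ι → F} (hx : x ∈ D i)
    (ha : comp hD a (ap g x) ≠ 0) (hb : comp hD b (ap g x) ≠ 0) :
    g ∉ Cfsg.Geo.decompositionStabilizer D := by
  rintro ⟨σ, hσ⟩
  have hm : ap g x ∈ D (σ i) := by rw [← hσ i]; exact ⟨x, hx, rfl⟩
  rw [comp_of_mem hD hm] at ha hb
  by_cases h : a = σ i
  · exact hb (if_neg fun hb' => hab (h.trans hb'.symm))
  · exact ha (if_neg h)

end Decomp

end CfsgLib.Geometric
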