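import Cfsg.Agent.Lib.Geometric.Decomp
import Cfsg.Agent.Lib.Geometric.Centres
import Cfsg.Agent.Lib.Geometric.UnitaryGen

/-!
Stabilisers of decompositions into subspaces of dimension at least two are maximal in the special
linear group, apart from planes over two elements.
-/

namespace CfsgLib.Geometric

open Matrix

variable {ι : Type} [Fintype ι] [DecidableEq ι] {F : Type*} [Field F]

namespace Decomp

variable {t k : ℕ} {D : Fin t → Submodule F (ι → F)} (hD : Cfsg.Geo.IsMDecomposition k D)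
include hD

/-- An element acting on one member only. -/
lemma mem_decompStab_of_supp {g : GL ι F} {i : Fin t} {v : ι → F} (hv : v ∈ D i)
    {φ : (ι → F) →ₗ[F] F} (hφ : ∀ l, l ≠ i → ∀ x ∈ D l, φ x = 0)
    (hg : ∀ x, ap g x = x + φ x • v) : g ∈ Cfsg.Geo.decompositionStabilizer D := by
  refine ⟨1, fun l => ?_⟩
  change (D l).map (Matrix.toLin' _) = D l
  refine Submodule.eq_of_le_of_finrank_eq ?_ (LinearEquiv.finrank_map_eq (apEquiv g) (D l))
  rintro _ ⟨x, hx, rfl⟩
  rw [Matrix.toLin'_apply, ← ap_def, hg]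
  by_cases h : l = i
  · subst h
    exact (D l).add_mem hx ((D l).smul_mem _ hv)
  · rw [hφ l h x hx, zero_smul, add_zero]
    exact hx

lemma mem_decompStab_of_mapsTo {g : GL ι F} (s : Fin t → Fin t)
    (h : ∀ l, ∀ x ∈ D l, ap g x ∈ D (s l)) : g ∈ Cfsg.Geo.decompositionStabilizer D := by
  have he : ∀ l, (D l).map (Matrix.toLin' (g : Matrix ι ι F)) = D (s l) := fun l =>
    Submodule.eq_of_le_of_finrank_eq (by
      rintro _ ⟨x, hx, rfl⟩
      exact h l x hx) ((LinearEquiv.finrank_map_eq (apEquiv g) (D l)).trans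
        ((hD.finrank_eq l).trans (hD.finrank_eq (s l)).symm))
  have hinj : Function.Injective s := by
    intro a b hab
    by_contra hne
    obtain ⟨u, hu, hu0⟩ := exists_ne_zero_mem hD a
    have hu' : ap g u ∈ (D b).map (Matrix.toLin' (g : Matrix ι ι F)) := by
      rw [he b, ← hab]; exact h a u hu
    obtain ⟨w, hw, hwu⟩ := hu'
    have h1 : w = u := ap_injective g hwu
    subst h1
    have := comp_of_mem hD (i := a) hw
    rw [comp_of_mem hD hu, if_pos rfl, if_neg hne] at this
    exact hu0 this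
  exact ⟨Equiv.ofBijective s (Finite.injective_iff_bijective.mp hinj), he⟩

/-- A functional on one member, extended by zero on the others. -/
lemma exists_functional {i : Fin t} {U : Submodule F (ι → F)} {x : ι → F} (hU : U ≤ D i)
    (hx : x ∈ D i) (hxU : x ∉ U) :
    ∃ φ : (ι → F) →ₗ[F] F, (∀ l, l ≠ i → ∀ y ∈ D l, φ y = 0) ∧ (∀ u ∈ U, φ u = 0) ∧ φ x = 1 := by
  obtain ⟨φ, hφ, hφx⟩ := exists_functional_eq_one hxU
  refine ⟨φ.comp (comp hD i), fun l hl y hy => ?_, fun u hu => ?_, ?_⟩
  · simp [comp_of_mem hD hy, Ne.symm hl]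
  · simp [comp_of_mem hD (hU hu), hφ u hu]
  · simp [comp_of_mem hD hx, hφx]

lemma exists_notMem_span {i : Fin t} (hk : 2 ≤ k) (x : ι → F) :
    ∃ z ∈ D i, z ∉ Submodule.span F {x} := by
  apply Set.not_subset.mp
  intro hle
  have h1 := Submodule.finrank_mono (t := Submodule.span F {x}) hle
  have h2 := finrank_span_le_card (R := F) ({x} : Set (ι → F))
  rw [hD.finrank_eq i] at h1
  simp at h2
  omega

/-- An element of determinant one exchanging two members and fixing the others. -/
theorem exists_swap_mem {i j : Fin t} (hij : i ≠ j) :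
    ∃ σ ∈ Cfsg.Geo.decompositionStabilizer D ⊓ Cfsg.Geo.specialLinear ι F,
      ∀ l, ∀ x ∈ D l, ap σ x ∈ D (Equiv.swap i j l) := by
  classical
  let e : D i ≃ₗ[F] D j := LinearEquiv.ofFinrankEq _ _
    ((hD.finrank_eq i).trans (hD.finrank_eq j).symm)
  let p : (ι → F) →ₗ[F] D i := (comp hD i).codRestrict (D i) (comp_mem hD i)
  let q : (ι → F) →ₗ[F] D j := (comp hD j).codRestrict (D j) (comp_mem hD j)
  let L : (ι → F) →ₗ[F] (ι → F) :=
    LinearMap.id - comp hD i - comp hD j + (D j).subtype.comp (e.toLinearMap.comp p) +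
      (D i).subtype.comp (e.symm.toLinearMap.comp q)
  have hL : ∀ x, L x = x - comp hD i x - comp hD j x + (e (p x) : ι → F) +
      (e.symm (q x) : ι → F) := fun x => rfl
  have hci : ∀ x, comp hD i (L x) = (e.symm (q x) : ι → F) := fun x => by
    rw [hL]
    simp [comp_of_mem hD (comp_mem hD i x), comp_of_mem hD (comp_mem hD j x),
      comp_of_mem hD (e (p x)).2, comp_of_mem hD (e.symm (q x)).2, hij]
  have hcj : ∀ x, comp hD j (L x) = (e (p x) : ι → F) := fun x => by
    rw [hL]
    simp [comp_of_mem hD (comp_mem hD i x), comp_of_mem hD (comp_mem hD j x),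
      comp_of_mem hD (e (p x)).2, comp_of_mem hD (e.symm (q x)).2, hij.symm]
  have hinv : Function.Involutive L := by
    intro x
    have h1 : p (L x) = e.symm (q x) := Subtype.ext (hci x)
    have h2 : q (L x) = e (p x) := Subtype.ext (hcj x)
    rw [hL (L x), h1, h2, e.apply_symm_apply, e.symm_apply_apply, hci, hcj, hL x]
    change _ + comp hD j x + comp hD i x = x
    abel
  set σ₀ := ofEquiv (LinearEquiv.ofInvolutive L hinv) with hσ₀
  have hap : ∀ x, ap σ₀ x = L x := fun x => by rw [hσ₀, ap_ofEquiv]; rfl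
  have hsq : σ₀ * σ₀ = 1 := gl_ext fun x => by rw [ap_mul, hap, hap, hinv, ap_one]
  have hσmap : ∀ l, ∀ x ∈ D l, ap σ₀ x ∈ D (Equiv.swap i j l) := by
    intro l x hx
    rw [hap, hL]
    have hp : (p x : ι → F) = comp hD i x := rfl
    have hq : (q x : ι → F) = comp hD j x := rfl
    by_cases hi : l = i
    · subst hi
      rw [Equiv.swap_apply_left]
      have h0 : q x = 0 := Subtype.ext (by rw [hq, comp_of_mem hD hx, if_neg hij.symm]; rfl)
      rw [h0, map_zero, comp_of_mem hD hx, if_pos rfl, comp_of_mem hD hx, if_neg hij.symm]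
      simp
    by_cases hj : l = j
    · subst hj
      rw [Equiv.swap_apply_right]
      have h0 : p x = 0 := Subtype.ext (by rw [hp, comp_of_mem hD hx, if_neg hij]; rfl)
      rw [h0, map_zero, comp_of_mem hD hx, if_neg hij, comp_of_mem hD hx, if_pos rfl]
      simp
    · rw [Equiv.swap_apply_of_ne_of_ne hi hj]
      have h0 : p x = 0 := Subtype.ext (by rw [hp, comp_of_mem hD hx, if_neg (Ne.symm hi)]; rfl)
      have h1 : q x = 0 := Subtype.ext (by rw [hq, comp_of_mem hD hx, if_neg (Ne.symm hj)]; rfl)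
      rw [h0, h1, map_zero, map_zero, comp_of_mem hD hx, if_neg (Ne.symm hi), comp_of_mem hD hx,
        if_neg (Ne.symm hj)]
      simpa using hx
  set δ := (σ₀ : Matrix ι ι F).det with hδ
  have hδ2 : δ * δ = 1 := by
    rw [hδ, ← Matrix.det_mul, ← Units.val_mul, hsq, Units.val_one, Matrix.det_one]
  obtain ⟨u, hu, hu0⟩ := exists_ne_zero_mem hD i
  obtain ⟨φ, hφ, -, hφu⟩ := exists_functional hD (U := ⊥) bot_le hu (by simpa using hu0)
  have hne : 1 + ((δ - 1) • φ) u ≠ 0 := by
    simp [hφu]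
    intro h
    rw [h] at hδ2
    simp at hδ2
  refine ⟨σ₀ * dil u ((δ - 1) • φ) hne, ⟨mul_mem (mem_decompStab_of_mapsTo hD _ hσmap)
    (mem_decompStab_of_supp hD hu (fun l hl x hx => by simp [hφ l hl x hx]) (ap_dil _ _ hne)),
    ?_⟩, ?_⟩
  · refine (mem_specialLinear_iff _).mpr ?_
    rw [Units.val_mul, Matrix.det_mul, det_of_ap _ _ _ (ap_dil _ _ hne),
      ← hδ]
    simp [hφu, hδ2]
  · intro l x hx
    rw [ap_mul, ap_dil]
    refine hσmap l _ ?_
    by_cases h : l = i
    · subst h; exact (D l).add_mem hx ((D l).smul_mem _ hu)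
    · simpa [hφ l h x hx] using hx

/-- The stabiliser of the decomposition is proper. -/
lemma stab_lt : Cfsg.Geo.decompositionStabilizer D ⊓ Cfsg.Geo.specialLinear ι F <
    Cfsg.Geo.specialLinear ι F := by
  refine lt_of_le_of_ne inf_le_right fun he => ?_
  let i : Fin t := ⟨0, by have := hD.two_le; omega⟩
  let j : Fin t := ⟨1, by have := hD.two_le; omega⟩
  have hij : i ≠ j := by simp [i, j, Fin.ext_iff]
  obtain ⟨x, hx, hx0⟩ := exists_ne_zero_mem hD i
  obtain ⟨y, hy, hy0⟩ := exists_ne_zero_mem hD j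
  obtain ⟨φ, hφ, -, hφx⟩ := exists_functional hD (U := ⊥) bot_le hx (by simpa using hx0)
  have hm : tv y φ (hφ j hij.symm y hy) ∈
      Cfsg.Geo.decompositionStabilizer D ⊓ Cfsg.Geo.specialLinear ι F := by
    rw [he]; exact tv_mem_specialLinear _ _ _
  refine not_mem_decompStab hD hij hx ?_ ?_ hm.1
  · simpa [ap_tv, hφx, comp_of_mem hD hx, comp_of_mem hD hy, hij] using hx0
  · simpa [ap_tv, hφx, comp_of_mem hD hx, comp_of_mem hD hy, hij.symm] using hy0

omit hD in
/-- Fields with at least four elements and a small exponent of the multiplicative group. -/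
lemma two_three_ne_zero [Fintype F] (hn : Fintype.card ι = 4)
    (hq : 4 ≤ Fintype.card F)
    (hμ : ∀ μ : F, μ ≠ 0 → μ ^ Fintype.card ι = 1) : (2 : F) ≠ 0 ∧ (3 : F) ≠ 0 := by
  classical
  have hd := (FiniteField.forall_pow_eq_one_iff F (Fintype.card ι)).mp fun u : Fˣ =>
    Units.ext (by simpa using hμ u u.ne_zero)
  rw [hn] at hd
  have h1 := Nat.le_of_dvd (by norm_num) hd
  have h5 : Fintype.card F = 5 := by
    by_contra h
    obtain h4 : Fintype.card F = 4 := by omega
    rw [h4] at hd; norm_num at hd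
  have hz : ((5 : ℕ) : F) = 0 := h5 ▸ Nat.cast_card_eq_zero F
  have h50 : (5 : F) = 0 := by exact_mod_cast hz
  constructor
  · intro h
    exact one_ne_zero (α := F) (by linear_combination h50 - 2 * h)
  · intro h
    exact one_ne_zero (α := F) (by linear_combination 2 * h - h50)

/-- Decompositions into members of dimension at least two. -/
theorem decompStab_isMaximalIn_of_two_le [Fintype F] (hk : 2 ≤ k)
    (ht : k = 2 → 3 ≤ t ∨ 4 ≤ Fintype.card F)
    (hex : ¬ (k = 2 ∧ Fintype.card F = 2)) :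
    Cfsg.Geo.IsMaximalIn (Cfsg.Geo.specialLinear ι F)
      (Cfsg.Geo.decompositionStabilizer D ⊓ Cfsg.Geo.specialLinear ι F) := by
  classical
  refine ⟨stab_lt hD, fun M hHM hMS => ?_⟩
  by_cases hM : M ≤ Cfsg.Geo.decompositionStabilizer D
  · exact Or.inl (le_antisymm (le_inf hM hMS) hHM)
  refine Or.inr (le_antisymm hMS ?_)
  obtain ⟨g, hgM, hg⟩ := SetLike.not_le_iff_exists.mp hM
  have htvH : ∀ (i : Fin t) (v : ι → F), v ∈ D i → ∀ (φ : (ι → F) →ₗ[F] F),
      (∀ l, l ≠ i → ∀ x ∈ D l, φ x = 0) → ∀ h : φ v = 0, tv v φ h ∈ M := fun i v hv φ hφ h =>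
    hHM ⟨mem_decompStab_of_supp hD hv hφ (ap_tv v φ h), tv_mem_specialLinear _ _ _⟩
  -- a transvection whose centre meets two members
  obtain ⟨a, ψ, hψa, hψ0, ht₀, i₁, j₁, hij₁, hai₁, haj₁⟩ : ∃ (a : ι → F) (ψ : (ι → F) →ₗ[F] F)
      (h : ψ a = 0), ψ ≠ 0 ∧ tv a ψ h ∈ M ∧ ∃ i j, i ≠ j ∧ comp hD i a ≠ 0 ∧ comp hD j a ≠ 0 := by
    obtain ⟨l, x, hx, i, j, hij, hi, hj⟩ : ∃ l, ∃ x ∈ D l, ∃ i j, i ≠ j ∧
        comp hD i (ap g x) ≠ 0 ∧ comp hD j (ap g x) ≠ 0 := by
      by_contra hc
      push Not at hc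
      choose U hU hU0 using exists_ne_zero_mem hD
      have hne : ∀ l, ∃ a, comp hD a (ap g (U l)) ≠ 0 := by
        intro l
        by_contra h
        push Not at h
        exact ap_ne_zero g (hU0 l) (by rw [← sum_comp hD (ap g (U l))]; simp [h])
      choose s hs using hne
      refine hg (mem_decompStab_of_mapsTo hD s fun l x hx => ?_)
      rw [← sum_comp hD (ap g x)]
      refine Submodule.sum_mem _ fun b _ => ?_
      by_cases hb : s l = b
      · subst hb; exact comp_mem hD _ _
      by_cases hbx : comp hD b (ap g x) = 0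
      · rw [hbx]; exact Submodule.zero_mem _
      exfalso
      have e1 : comp hD (s l) (ap g x) = 0 := hc l x hx b (s l) (Ne.symm hb) hbx
      have e2 : comp hD b (ap g (U l)) = 0 := hc l _ (hU l) (s l) b hb (hs l)
      have := hc l _ ((D l).add_mem hx (hU l)) b (s l) (Ne.symm hb)
      rw [ap_add, map_add, map_add, e1, e2, add_zero, zero_add] at this
      exact hs l (this hbx)
    have hx0 : x ≠ 0 := fun h => hi (by simp [h, ap_zero])
    obtain ⟨z, hz, hzx⟩ := exists_notMem_span hD (i := l) hk x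
    obtain ⟨φ, hφ, hφx, hφz⟩ := exists_functional hD (U := Submodule.span F {x})
      ((Submodule.span_singleton_le_iff_mem _ _).mpr hx) hz hzx
    have h2 := mul_mem (mul_mem hgM
      (htvH l x hx φ hφ (hφx x (Submodule.mem_span_singleton_self x)))) (inv_mem hgM)
    rw [conj_tv] at h2
    refine ⟨_, _, _, fun h => ?_, h2, i, j, hij, hi, hj⟩
    have := congrArg (fun ψ : (ι → F) →ₗ[F] F => ψ (ap g z)) h
    simp [ap_inv_ap, hφz] at this
  have hsmall : ¬ 3 ≤ t → k = 2 → (∀ μ : F, μ ≠ 0 → μ ^ Fintype.card ι = 1) →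
      (2 : F) ≠ 0 ∧ (3 : F) ≠ 0 := fun ht3 hk2 hμ => two_three_ne_zero
    (le_antisymm ((card_le hD).trans (by subst hk2; omega)) (by
      have h := Submodule.finrank_sup_add_finrank_inf_eq (D i₁) (D j₁)
      rw [(hD.indep.pairwiseDisjoint hij₁).eq_bot, finrank_bot, hD.finrank_eq,
        hD.finrank_eq, hk2] at h
      have h' := Submodule.finrank_le (D i₁ ⊔ D j₁)
      rw [Module.finrank_fintype_fun_eq_card] at h'
      omega)) ((ht hk2).resolve_left ht3) hμ
  -- the first reduction
  obtain ⟨a, ψ, hψa, ht₀, i, j, v, hij, hvi, hva, hψv, hv0, u, hu, hψu⟩ : ∃ (a : ι → F)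
      (ψ : (ι → F) →ₗ[F] F) (h : ψ a = 0), tv a ψ h ∈ M ∧ ∃ i j : Fin t, ∃ v, i ≠ j ∧ v ∈ D i ∧
        comp hD i a ∉ Submodule.span F {v} ∧ ψ v = 0 ∧ v ≠ 0 ∧ ∃ u ∈ D j, ψ u ≠ 0 := by
    have good : ∀ (a : ι → F) (ψ : (ι → F) →ₗ[F] F) (h : ψ a = 0), tv a ψ h ∈ M →
        ∀ i, comp hD i a ≠ 0 → (∀ x ∈ D i, ψ x = 0) → ψ ≠ 0 →
        ∃ (a : ι → F) (ψ : (ι → F) →ₗ[F] F) (h : ψ a = 0), tv a ψ h ∈ M ∧
          ∃ i j : Fin t, ∃ v, i ≠ j ∧ v ∈ D i ∧ comp hD i a ∉ Submodule.span F {v} ∧ ψ v = 0 ∧ v ≠ 0 ∧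
            ∃ u ∈ D j, ψ u ≠ 0 := by
      intro a ψ h hm i hi hker hne
      obtain ⟨v, hv, hvn⟩ := exists_notMem_span hD (i := i) hk (comp hD i a)
      obtain ⟨j, u, hu, hju⟩ : ∃ j, ∃ u ∈ D j, ψ u ≠ 0 := by
        by_contra hc
        push Not at hc
        apply hne
        refine LinearMap.ext fun x => ?_
        rw [← sum_comp hD x, map_sum]
        exact Finset.sum_eq_zero fun l _ => hc l _ (comp_mem hD l x)
      refine ⟨a, ψ, h, hm, i, j, v, fun hij => hju (hker u (hij ▸ hu)), hv, fun hmem => hvn ?_,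
        hker v hv, fun h0 => hvn (h0 ▸ Submodule.zero_mem _), u, hu, hju⟩
      obtain ⟨c, hc⟩ := Submodule.mem_span_singleton.mp hmem
      have hc0 : c ≠ 0 := fun h0 => hi (by rw [← hc, h0, zero_smul])
      exact Submodule.mem_span_singleton.mpr ⟨c⁻¹, by
        rw [← hc, smul_smul, inv_mul_cancel₀ hc0, one_smul]⟩
    by_cases hzero : ∃ i, comp hD i a ≠ 0 ∧ ∀ x ∈ D i, ψ x = 0
    · obtain ⟨i, hi, hker⟩ := hzero
      exact good a ψ hψa ht₀ i hi hker hψ0
    push Not at hzero
    obtain ⟨u, hu, hψu⟩ := hzero j₁ haj₁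
    by_cases hsp : D i₁ ⊓ LinearMap.ker ψ ≤ Submodule.span F {comp hD i₁ a}
    · -- planes: a determinant twist changes one component of the functional
      have hk2 : k = 2 := by
        have h1 : k ≤ Module.finrank F (D i₁ ⊓ LinearMap.ker ψ : Submodule F (ι → F)) + 1 := by
          let Φ : D i₁ →ₗ[F] F := ψ.comp (D i₁).subtype
          have h4 := Φ.finrank_range_add_finrank_ker
          have h5 : Module.finrank F (LinearMap.range Φ) ≤ 1 :=
            (Submodule.finrank_le _).trans_eq (Module.finrank_self F)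
          have h6 : (LinearMap.ker Φ).map (D i₁).subtype ≤ D i₁ ⊓ LinearMap.ker ψ := by
            rintro _ ⟨r, hr, rfl⟩
            exact ⟨r.2, LinearMap.mem_ker.mp hr⟩
          have h7 := Submodule.finrank_mono h6
          rw [(Submodule.equivMapOfInjective _ (D i₁).injective_subtype _).finrank_eq.symm] at h7
          rw [hD.finrank_eq i₁] at h4
          omega
        have h2 := Submodule.finrank_mono hsp
        rw [finrank_span_singleton hai₁] at h2
        omega
      obtain ⟨u₁, hu₁, hψu₁⟩ := hzero i₁ hai₁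
      have hq : ∃ δ : F, δ ≠ 0 ∧ δ ≠ 1 := by
        by_contra h
        push Not at h
        apply hex
        refine ⟨hk2, ?_⟩
        have hsub : (Finset.univ : Finset F) ⊆ {0, 1} := by
          intro l _
          by_cases hl : l = 0
          · simp [hl]
          · simp [h l hl]
        have h1 := (Finset.card_le_card hsub).trans Finset.card_le_two
        rw [Finset.card_univ] at h1
        have h2 := Fintype.one_lt_card (α := F)
        omega
      obtain ⟨δ, hδ0, hδ1⟩ := hq
      by_cases ht3 : 3 ≤ t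
      swap
      · -- two planes
        by_cases hsp' : D j₁ ⊓ LinearMap.ker ψ ≤ Submodule.span F {comp hD j₁ a}
        swap
        · obtain ⟨v, hv, hvn⟩ := Set.not_subset.mp hsp'
          refine ⟨a, ψ, hψa, ht₀, j₁, i₁, v, hij₁.symm, hv.1, fun hmem => hvn ?_, hv.2,
            fun h0 => hvn (h0 ▸ Submodule.zero_mem _), u₁, hu₁, hψu₁⟩
          obtain ⟨c, hc⟩ := Submodule.mem_span_singleton.mp hmem
          have hc0 : c ≠ 0 := fun h0 => haj₁ (by rw [← hc, h0, zero_smul])
          exact Submodule.mem_span_singleton.mpr ⟨c⁻¹, by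
            rw [← hc, smul_smul, inv_mul_cancel₀ hc0, one_smul]⟩
        have hval : ∀ r (ζ : (ι → F) →ₗ[F] F), (∀ l, l ≠ r → ∀ x ∈ D l, ζ x = 0) →
            ∀ x, ζ x = ζ (comp hD r x) := by
          intro r ζ hζ x
          conv_lhs => rw [← sum_comp hD x, map_sum]
          exact Finset.sum_eq_single r (fun b _ hb => hζ b hb _ (comp_mem hD b x))
            (fun h => absurd (Finset.mem_univ r) h)
        -- on each of the two planes the functional kills the component of the centre
        have hkill : ∀ r, r ∈ ({i₁, j₁} : Finset (Fin t)) → ψ (comp hD r a) = 0 := by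
          intro r hr
          have hra : comp hD r a ≠ 0 ∧ D r ⊓ LinearMap.ker ψ ≤ Submodule.span F {comp hD r a} := by
            simp only [Finset.mem_insert, Finset.mem_singleton] at hr
            rcases hr with rfl | rfl
            exacts [⟨hai₁, hsp⟩, ⟨haj₁, hsp'⟩]
          obtain ⟨v, hv, hv0, hψv⟩ := exists_ne_zero_map_eq_zero (k := 1) (D r)
            (LinearMap.pi fun _ => ψ) (by rw [hD.finrank_eq]; omega)
          obtain ⟨d, hd⟩ := Submodule.mem_span_singleton.mp (hra.2 ⟨hv, congrFun hψv 0⟩)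
          have hd0 : d ≠ 0 := fun h0 => hv0 (by rw [← hd, h0, zero_smul])
          have e : ψ v = 0 := congrFun hψv 0
          rw [← hd, map_smul, smul_eq_mul, mul_eq_zero] at e
          exact e.resolve_left hd0
        obtain ⟨χ, hχa, hχM, hχj, hχu⟩ : ∃ (χ : (ι → F) →ₗ[F] F) (h : χ a = 0),
            tv a χ h ∈ M ∧ (∀ x ∈ D j₁, χ x = 0) ∧ χ u₁ ≠ 0 := by
          have hu₁a : u₁ ∉ Submodule.span F {comp hD i₁ a} := by
            intro h
            obtain ⟨c, hc⟩ := Submodule.mem_span_singleton.mp h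
            exact hψu₁ (by rw [← hc, map_smul, hkill i₁ (by simp), smul_zero])
          obtain ⟨ξ, hξ, hξa, hξu⟩ := exists_functional hD
            (U := Submodule.span F {comp hD i₁ a})
            ((Submodule.span_singleton_le_iff_mem _ _).mpr (comp_mem hD i₁ a)) hu₁ hu₁a
          obtain ⟨w, hw, hwa⟩ := exists_notMem_span hD (i := j₁) hk (comp hD j₁ a)
          obtain ⟨ξ', hξ', hξ'a, hξ'w⟩ := exists_functional hD
            (U := Submodule.span F {comp hD j₁ a})
            ((Submodule.span_singleton_le_iff_mem _ _).mpr (comp_mem hD j₁ a)) hw hwa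
          have e2 : ξ a = 0 := by
            rw [hval i₁ ξ hξ, hξa _ (Submodule.mem_span_singleton_self _)]
          have e1 : ξ' a = 0 := by
            rw [hval j₁ ξ' hξ', hξ'a _ (Submodule.mem_span_singleton_self _)]
          have hwu : ξ w = 0 := hξ j₁ hij₁.symm w hw
          have huw : ξ' u₁ = 0 := hξ' i₁ hij₁ u₁ hu₁
          -- twisting by diagonal elements
          have twist : ∀ μ δ ε : F, μ ≠ 0 → δ ≠ 0 → ε ≠ 0 → μ ^ Fintype.card ι * (δ * ε) = 1 →
              ∃ (χ : (ι → F) →ₗ[F] F) (h : χ a = 0), tv a χ h ∈ M ∧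
                χ u₁ = δ⁻¹ * ψ u₁ ∧ χ w = ε⁻¹ * ψ w ∧ χ (comp hD j₁ a) = 0 := by
            intro μ δ ε hμ hδ hε hdet
            have hA : 1 + ((δ - 1) • ξ) u₁ ≠ 0 := by simpa [hξu] using hδ
            have hB : 1 + ((ε - 1) • ξ') w ≠ 0 := by simpa [hξ'w] using hε
            set h := dil u₁ ((δ - 1) • ξ) hA * dil w ((ε - 1) • ξ') hB with hhdef
            set Z : GL ι F := ofEquiv (LinearEquiv.smulOfUnit (Units.mk0 μ hμ)) with hZdef
            have hZ : ∀ x, ap Z x = μ • x := fun x => by rw [hZdef, ap_ofEquiv]; rfl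
            have hZdet : (Z : Matrix ι ι F).det = μ ^ Fintype.card ι := by
              have : (Z : Matrix ι ι F) = μ • 1 := by
                ext i j
                have := congrFun (hZ (Pi.single j 1)) i
                rw [ap_def, Matrix.mulVec_single_one] at this
                simpa [Matrix.one_apply, Pi.single_apply] using this
              rw [this, Matrix.det_smul, Matrix.det_one, mul_one]
            have hh : Z * h ∈ M := hHM ⟨mul_mem
              (mem_decompStab_of_mapsTo hD id fun r x hx => by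
                rw [hZ]; exact (D r).smul_mem μ hx)
              (mul_mem
              (mem_decompStab_of_supp hD hu₁ (fun r hr x hx => by simp [hξ r hr x hx]) (ap_dil _ _ hA))
              (mem_decompStab_of_supp hD hw (fun r hr x hx => by simp [hξ' r hr x hx]) (ap_dil _ _ hB))), by
              refine (mem_specialLinear_iff _).mpr ?_
              rw [Units.val_mul, Matrix.det_mul, hZdet, Units.val_mul, Matrix.det_mul,
                det_of_ap _ _ _ (ap_dil _ _ hA), det_of_ap _ _ _ (ap_dil _ _ hB)]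
              simp only [LinearMap.smul_apply, hξu, hξ'w, smul_eq_mul]
              linear_combination hdet⟩
            have hha : ap h a = a := by simp [hhdef, ap_mul, ap_dil, e1, e2]
            have hhu : ap h u₁ = δ • u₁ := by
              simp [hhdef, ap_mul, ap_dil, huw, hξu, sub_smul]
            have hhw : ap h w = ε • w := by
              simp [hhdef, ap_mul, ap_dil, hwu, hξ'w, sub_smul, smul_smul]
            have hha' : ap h (comp hD j₁ a) = comp hD j₁ a := by
              simp [hhdef, ap_mul, ap_dil, hξ j₁ hij₁.symm _ (comp_mem hD j₁ a),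
                hξ'a _ (Submodule.mem_span_singleton_self _)]
            have hinv : ∀ (x : ι → F) (c : F), c ≠ 0 → ap h x = c • x → ap h⁻¹ x = c⁻¹ • x := by
              intro x c hc hx
              apply ap_injective h
              rw [ap_ap_inv, ap_smul, hx, smul_smul, inv_mul_cancel₀ hc, one_smul]
            have hZc : ∀ g : GL ι F, Z * g = g * Z := fun g => gl_ext fun x => by
              rw [ap_mul, ap_mul, hZ, hZ, ap_smul]
            have h2 := mul_mem (mul_mem hh ht₀) (inv_mem hh)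
            rw [show Z * h * tv a ψ hψa * (Z * h)⁻¹ = h * tv a ψ hψa * h⁻¹ by
              rw [show Z * h * tv a ψ hψa * (Z * h)⁻¹ = Z * (h * tv a ψ hψa * h⁻¹) * Z⁻¹ by group,
                hZc, mul_inv_cancel_right],
              conj_tv] at h2
            have hψ'a : (ψ.comp (apEquiv h⁻¹).toLinearMap) a = 0 := by
              change ψ (ap h⁻¹ a) = 0
              rw [show ap h⁻¹ a = a by conv_lhs => rw [← hha, ap_inv_ap]]
              exact hψa
            refine ⟨ψ.comp (apEquiv h⁻¹).toLinearMap, hψ'a, ?_, ?_, ?_, ?_⟩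
            · convert h2 using 1
              exact tv_eq_tv _ _ fun x => by rw [hha]
            · simp [hinv u₁ δ hδ hhu]
            · simp [hinv w ε hε hhw]
            · simp [hinv _ 1 one_ne_zero (by rw [one_smul]; exact hha'), hkill j₁ (by simp)]
          -- the second member is spanned by the component and `w`
          have hspan : ∀ χ : (ι → F) →ₗ[F] F, χ (comp hD j₁ a) = 0 → χ w = 0 →
              ∀ x ∈ D j₁, χ x = 0 := by
            intro χ h1 h2 x hx
            have hli : LinearIndependent F ![comp hD j₁ a, w] :=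
              (LinearIndependent.pair_iff' haj₁).2 fun c hc =>
                hwa (Submodule.mem_span_singleton.mpr ⟨c, hc⟩)
            have hle : Submodule.span F (Set.range ![comp hD j₁ a, w]) ≤ D j₁ :=
              Submodule.span_le.2 (by
                rintro _ ⟨i, rfl⟩
                fin_cases i
                exacts [comp_mem hD j₁ a, hw])
            have heq := Submodule.eq_of_le_of_finrank_le hle (by
              rw [finrank_span_eq_card hli, hD.finrank_eq, hk2]; simp)
            have hle' : Submodule.span F (Set.range ![comp hD j₁ a, w]) ≤ LinearMap.ker χ :=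
              Submodule.span_le.2 (by
                rintro _ ⟨i, rfl⟩
                fin_cases i
                exacts [LinearMap.mem_ker.mpr h1, LinearMap.mem_ker.mpr h2])
            exact hle' (heq.symm ▸ hx)
          by_cases hμ : ∃ μ : F, μ ≠ 0 ∧ μ ^ Fintype.card ι ≠ 1
          · obtain ⟨μ, hμ0, hμ1⟩ := hμ
            have hn0 : μ ^ Fintype.card ι ≠ 0 := pow_ne_zero _ hμ0
            obtain ⟨χ, hχa, hχM, hχu, hχw, hχc⟩ := twist μ (μ ^ Fintype.card ι)⁻¹ 1 hμ0
              (inv_ne_zero hn0) one_ne_zero (by rw [mul_one, mul_inv_cancel₀ hn0])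
            have h3 := inv_mem ht₀
            rw [tv_inv] at h3
            have h4 := mul_mem hχM h3
            rw [tv_add] at h4
            refine ⟨_, _, h4, hspan _ ?_ ?_, ?_⟩
            · simp [hχc, hkill j₁ (by simp)]
            · simp [hχw]
            · rw [LinearMap.add_apply, LinearMap.neg_apply, hχu, inv_inv,
                show μ ^ Fintype.card ι * ψ u₁ + -ψ u₁ = (μ ^ Fintype.card ι - 1) * ψ u₁ by ring]
              exact mul_ne_zero (sub_ne_zero.mpr hμ1) hψu₁
          · push Not at hμ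
            obtain ⟨h2', h3'⟩ := hsmall ht3 hk2 hμ
            obtain ⟨χ, hχa, hχM, hχu, hχw, hχc⟩ := twist 1 2 2⁻¹ one_ne_zero h2' (inv_ne_zero h2')
              (by rw [one_pow, one_mul, mul_inv_cancel₀ h2'])
            have h5 := inv_mem hχM
            rw [tv_inv] at h5
            have h4 := mul_mem (mul_mem ht₀ ht₀) h5
            rw [tv_add, tv_add] at h4
            refine ⟨_, _, h4, hspan _ ?_ ?_, ?_⟩
            · simp [hχc, hkill j₁ (by simp)]
            · simp [hχw]; ring
            · rw [LinearMap.add_apply, LinearMap.neg_apply, LinearMap.add_apply, hχu]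
              intro h
              have : (3 : F) * ψ u₁ = 0 := by field_simp at h; linear_combination h
              exact mul_ne_zero h3' hψu₁ this
        exact good a χ hχa hχM j₁ haj₁ hχj (fun h0 => hχu (by rw [h0, LinearMap.zero_apply]))
      obtain ⟨l, hli, hlj⟩ : ∃ l, l ≠ i₁ ∧ l ≠ j₁ := by
        by_contra h
        push Not at h
        have hsub : (Finset.univ : Finset (Fin t)) ⊆ {i₁, j₁} := by
          intro l _
          by_cases hl : l = i₁
          · simp [hl]
          · simp [h l hl]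
        have := (Finset.card_le_card hsub).trans Finset.card_le_two
        rw [Finset.card_univ, Fintype.card_fin] at this
        omega
      have hu₁a : u₁ ∉ Submodule.span F {comp hD i₁ a} := by
        intro h
        obtain ⟨c, hc⟩ := Submodule.mem_span_singleton.mp h
        obtain ⟨v, hv, hv0, hψv⟩ := exists_ne_zero_map_eq_zero (k := 1) (D i₁)
          (LinearMap.pi fun _ => ψ) (by rw [hD.finrank_eq]; omega)
        obtain ⟨d, hd⟩ := Submodule.mem_span_singleton.mp (hsp ⟨hv, congrFun hψv 0⟩)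
        have hd0 : d ≠ 0 := fun h0 => hv0 (by rw [← hd, h0, zero_smul])
        apply hψu₁
        have e : ψ v = 0 := congrFun hψv 0
        rw [← hd, map_smul, smul_eq_mul, mul_eq_zero] at e
        rw [← hc, map_smul, e.resolve_left hd0, smul_zero]
      obtain ⟨ξ, hξ, hξa, hξu⟩ := exists_functional hD
        (U := Submodule.span F {comp hD i₁ a})
        ((Submodule.span_singleton_le_iff_mem _ _).mpr (comp_mem hD i₁ a)) hu₁ hu₁a
      obtain ⟨w, hw, hwa⟩ := exists_notMem_span hD (i := l) hk (comp hD l a)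
      obtain ⟨ξ', hξ', hξ'a, hξ'w⟩ := exists_functional hD
        (U := Submodule.span F {comp hD l a})
        ((Submodule.span_singleton_le_iff_mem _ _).mpr (comp_mem hD l a)) hw hwa
      have hA : 1 + ((δ - 1) • ξ) u₁ ≠ 0 := by simpa [hξu] using hδ0
      have hB : 1 + ((δ⁻¹ - 1) • ξ') w ≠ 0 := by simpa [hξ'w] using hδ0
      set h := dil u₁ ((δ - 1) • ξ) hA * dil w ((δ⁻¹ - 1) • ξ') hB with hhdef
      have hh : h ∈ M := hHM ⟨mul_mem
        (mem_decompStab_of_supp hD hu₁ (fun r hr x hx => by simp [hξ r hr x hx]) (ap_dil _ _ hA))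
        (mem_decompStab_of_supp hD hw (fun r hr x hx => by simp [hξ' r hr x hx]) (ap_dil _ _ hB)), by
        refine (mem_specialLinear_iff _).mpr ?_
        rw [Units.val_mul, Matrix.det_mul,
          det_of_ap _ _ _ (ap_dil _ _ hA), det_of_ap _ _ _ (ap_dil _ _ hB)]
        simp [hξu, hξ'w, hδ0]⟩
      have hval : ∀ r (ζ : (ι → F) →ₗ[F] F), (∀ l, l ≠ r → ∀ x ∈ D l, ζ x = 0) →
          ∀ x, ζ x = ζ (comp hD r x) := by
        intro r ζ hζ x
        conv_lhs => rw [← sum_comp hD x, map_sum]
        exact Finset.sum_eq_single r (fun b _ hb => hζ b hb _ (comp_mem hD b x))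
          (fun h => absurd (Finset.mem_univ r) h)
      have hha : ap h a = a := by
        have e1 : ξ' a = 0 := by
          rw [hval l ξ' hξ', hξ'a _ (Submodule.mem_span_singleton_self _)]
        have e2 : ξ a = 0 := by
          rw [hval i₁ ξ hξ, hξa _ (Submodule.mem_span_singleton_self _)]
        simp [hhdef, ap_mul, ap_dil, e1, e2]
      have h2 := mul_mem (mul_mem hh ht₀) (inv_mem hh)
      rw [conj_tv] at h2
      have h3 := inv_mem ht₀
      rw [tv_inv] at h3
      set ψ' := ψ.comp (apEquiv h⁻¹).toLinearMap with hψ'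
      have hψ'a : ψ' a = 0 := by
        change ψ (ap h⁻¹ a) = 0
        rw [show ap h⁻¹ a = a by conv_lhs => rw [← hha, ap_inv_ap]]
        exact hψa
      have h2' : tv a ψ' hψ'a ∈ M := by
        convert h2 using 1
        exact tv_eq_tv _ _ fun x => by rw [hha]
      have h4 := mul_mem h2' h3
      rw [tv_add] at h4
      have hfix : ∀ r, r ≠ i₁ → r ≠ l → ∀ x ∈ D r, ap h⁻¹ x = x := by
        intro r hr hr' x hx
        have hhx : ap h x = x := by simp [hhdef, ap_mul, ap_dil, hξ r hr x hx, hξ' r hr' x hx]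
        conv_lhs => rw [← hhx, ap_inv_ap]
      have hinvu : ap h⁻¹ u₁ = δ⁻¹ • u₁ := by
        apply ap_injective h
        rw [ap_ap_inv, ap_smul]
        simp [hhdef, ap_mul, ap_dil, hξ' i₁ (Ne.symm hli) u₁ hu₁, hξu, smul_smul, hδ0, sub_mul,
          sub_smul]
      refine good a _ _ h4 j₁ haj₁ (fun x hx => ?_) (fun h0 => hψu₁ ?_)
      · simp [hψ', hfix j₁ hij₁.symm (Ne.symm hlj) x hx]
      · have e := congrArg (fun ζ : (ι → F) →ₗ[F] F => ζ u₁) h0
        simp only [LinearMap.add_apply, LinearMap.neg_apply, hψ', LinearMap.comp_apply,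
          LinearEquiv.coe_coe, apEquiv_apply, hinvu, map_smul, smul_eq_mul, LinearMap.zero_apply] at e
        have e2 : (δ⁻¹ - 1) * ψ u₁ = 0 := by linear_combination e
        exact (mul_eq_zero.mp e2).resolve_left (sub_ne_zero.mpr (inv_ne_one.mpr hδ1))
    · obtain ⟨v, hv, hvn⟩ := Set.not_subset.mp hsp
      refine ⟨a, ψ, hψa, ht₀, i₁, j₁, v, hij₁, hv.1, fun hmem => hvn ?_, hv.2,
        fun h0 => hvn (h0 ▸ Submodule.zero_mem _), u, hu, hψu⟩
      obtain ⟨c, hc⟩ := Submodule.mem_span_singleton.mp hmem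
      have hc0 : c ≠ 0 := fun h0 => hai₁ (by rw [← hc, h0, zero_smul])
      exact Submodule.mem_span_singleton.mpr ⟨c⁻¹, by
        rw [← hc, smul_smul, inv_mul_cancel₀ hc0, one_smul]⟩
  -- one transvection across two members
  obtain ⟨χ₀, hχ₀, hχ₀0, hcross⟩ : ∃ χ : (ι → F) →ₗ[F] F,
      ∃ hχ : ∀ l, l ≠ j → ∀ x ∈ D l, χ x = 0, χ ≠ 0 ∧ tv v χ (hχ i hij v hvi) ∈ M := by
    obtain ⟨φ, hφ, hφv, hφa⟩ := exists_functional hD (U := Submodule.span F {v})
      ((Submodule.span_singleton_le_iff_mem _ _).mpr hvi) (comp_mem hD i a) hva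
    have hφv' : φ v = 0 := hφv v (Submodule.mem_span_singleton_self v)
    have hφa' : φ a = 1 := by
      conv_lhs => rw [← sum_comp hD a, map_sum]
      rw [Finset.sum_eq_single i (fun b _ hb => hφ b hb _ (comp_mem hD b a))
        (fun h => absurd (Finset.mem_univ i) h), hφa]
    have hs := htvH i v hvi φ hφ hφv'
    have h2 := mul_mem (mul_mem (mul_mem hs ht₀) (inv_mem hs)) (inv_mem ht₀)
    have h3 : tv v ψ hψv ∈ M := by
      convert h2 using 1
      apply gl_ext
      intro x
      simp only [ap_mul, tv_inv, ap_tv, LinearMap.neg_apply, map_add, map_smul, hψa, hψv, hφv',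
        hφa', smul_eq_mul]
      module
    have hψi : (ψ.comp (comp hD i)) v = 0 := by simp [comp_of_mem hD hvi, hψv]
    have h4 : tv v (ψ.comp (comp hD i)) hψi ∈ M :=
      htvH i v hvi _ (fun l hl x hx => by simp [comp_of_mem hD hx, Ne.symm hl]) hψi
    obtain ⟨w, hw, hψw⟩ : ∃ w ∈ D j, ψ w = 1 :=
      ⟨(ψ u)⁻¹ • u, (D j).smul_mem _ hu, by simp [hψu]⟩
    obtain ⟨z, hz, hzw⟩ := exists_notMem_span hD (i := j) hk w
    obtain ⟨χ, hχ, hχw, hχz⟩ := exists_functional hD (U := Submodule.span F {w})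
      ((Submodule.span_singleton_le_iff_mem _ _).mpr hw) hz hzw
    have hχw' : χ w = 0 := hχw w (Submodule.mem_span_singleton_self w)
    have hh := htvH j w hw χ hχ hχw'
    have h6 := inv_mem h4
    rw [tv_inv] at h6
    have h7 := mul_mem h3 h6
    rw [tv_add] at h7
    have h8 := mul_mem (mul_mem (mul_mem hh h7) (inv_mem hh)) (inv_mem h7)
    refine ⟨-χ, fun l hl x hx => by simp [hχ l hl x hx], fun h => ?_, ?_⟩
    · have := congrArg (fun ζ : (ι → F) →ₗ[F] F => ζ z) h
      simp [hχz] at this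
    · convert h8 using 1
      apply gl_ext
      intro x
      simp only [ap_mul, tv_inv, ap_tv, LinearMap.neg_apply, LinearMap.add_apply,
        LinearMap.comp_apply, map_add, map_smul, map_neg, comp_of_mem hD hvi, comp_of_mem hD hw,
        if_pos, if_neg hij, map_zero, hψv, hψw, hχ i hij v hvi, hχw', smul_eq_mul]
      module
  -- all transvections across the two members
  have hφ0 : ∀ v' ∈ D i, ∀ χ : (ι → F) →ₗ[F] F, (∀ l, l ≠ j → ∀ x ∈ D l, χ x = 0) → χ v' = 0 :=
    fun v' hv' χ hχ => hχ i hij v' hv'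
  have hfun : ∀ χ : (ι → F) →ₗ[F] F, (hχ : ∀ l, l ≠ j → ∀ x ∈ D l, χ x = 0) →
      tv v χ (hφ0 v hvi χ hχ) ∈ M := by
    have part : ∀ χ : (ι → F) →ₗ[F] F, (hχ : ∀ l, l ≠ j → ∀ x ∈ D l, χ x = 0) →
        ∀ w ∈ D j, χ w = 0 → χ₀ w ≠ 0 → tv v χ (hφ0 v hvi χ hχ) ∈ M := by
      intro χ hχ w hw hχw hne
      have h0 : ((-(χ₀ w)⁻¹) • χ) w = 0 := by simp [hχw]
      have hh := htvH j w hw _ (fun l hl x hx => by simp [hχ l hl x hx]) h0
      have h8 := mul_mem (mul_mem (mul_mem hh hcross) (inv_mem hh)) (inv_mem hcross)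
      convert h8 using 1
      apply gl_ext
      intro x
      simp only [ap_mul, tv_inv, ap_tv, LinearMap.neg_apply, LinearMap.smul_apply, map_add,
        map_smul, smul_eq_mul, hχw, hχ i hij v hvi, hχ₀ i hij v hvi]
      match_scalars <;> field_simp <;> ring
    intro χ hχ
    obtain ⟨z₀, hz₀, hz₀1⟩ : ∃ z ∈ D j, χ₀ z ≠ 0 := by
      by_contra hc
      push Not at hc
      apply hχ₀0
      refine LinearMap.ext fun x => ?_
      rw [← sum_comp hD x, map_sum]
      refine Finset.sum_eq_zero fun l _ => ?_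
      by_cases hl : l = j
      · subst hl; exact hc _ (comp_mem hD l x)
      · exact hχ₀ l hl _ (comp_mem hD l x)
    obtain ⟨z₁, hz₁, hz₁n⟩ := exists_notMem_span hD (i := j) hk z₀
    -- split into a part killing `z₀` and a part killing a second vector
    obtain ⟨η, hη, hη0, hη1⟩ := exists_functional hD (U := Submodule.span F {z₀})
      ((Submodule.span_singleton_le_iff_mem _ _).mpr hz₀) hz₁ hz₁n
    have hη0' : η z₀ = 0 := hη0 z₀ (Submodule.mem_span_singleton_self z₀)
    obtain ⟨z₂, hz₂, hz₂1, hz₂2⟩ : ∃ z ∈ D j, η z = 1 ∧ χ₀ z ≠ 0 := by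
      by_cases h : χ₀ z₁ = 0
      · exact ⟨z₁ + z₀, (D j).add_mem hz₁ hz₀, by simp [hη1, hη0'], by simp [h, hz₀1]⟩
      · exact ⟨z₁, hz₁, hη1, h⟩
    have h1 := part (χ z₂ • η) (fun l hl x hx => by simp [hη l hl x hx]) z₀ hz₀
      (by simp [hη0']) hz₀1
    have h2 := part (χ - χ z₂ • η) (fun l hl x hx => by simp [hη l hl x hx, hχ l hl x hx]) z₂ hz₂
      (by simp [hz₂1]) hz₂2
    have h3 := mul_mem h1 h2
    rw [tv_add] at h3
    convert h3 using 2
    abel
  have hall : ∀ v' ∈ D i, ∀ χ : (ι → F) →ₗ[F] F, ∀ h : χ v' = 0,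
      (∀ l, l ≠ j → ∀ x ∈ D l, χ x = 0) → tv v' χ h ∈ M := by
    have part : ∀ v' ∈ D i, v ∉ Submodule.span F {v'} → ∀ χ : (ι → F) →ₗ[F] F, ∀ h : χ v' = 0,
        (∀ l, l ≠ j → ∀ x ∈ D l, χ x = 0) → tv v' χ h ∈ M := by
      intro v' hv' hn χ h hχ
      obtain ⟨φ, hφ, hφv', hφv⟩ := exists_functional hD (U := Submodule.span F {v'})
        ((Submodule.span_singleton_le_iff_mem _ _).mpr hv') hvi hn
      have hh := htvH i v' hv' φ hφ (hφv' v' (Submodule.mem_span_singleton_self v'))
      have hχM := hfun χ hχ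
      have h8 := mul_mem (mul_mem (mul_mem hh hχM) (inv_mem hh)) (inv_mem hχM)
      convert h8 using 1
      apply gl_ext
      intro x
      simp only [ap_mul, tv_inv, ap_tv, LinearMap.neg_apply, map_add, map_smul, smul_eq_mul,
        hφv' v' (Submodule.mem_span_singleton_self v'), hφv, h, hχ i hij v hvi]
      module
    intro v' hv' χ h hχ
    by_cases hn : v ∈ Submodule.span F {v'}
    · obtain ⟨w, hw, hwn⟩ := exists_notMem_span hD (i := i) hk v
      obtain ⟨c, hc⟩ := Submodule.mem_span_singleton.mp hn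
      have hc0 : c ≠ 0 := fun h0 => hv0 (by rw [← hc, h0, zero_smul])
      have hspan : Submodule.span F {v'} = Submodule.span F {v} := by
        rw [← hc, Submodule.span_singleton_smul_eq (Ne.isUnit hc0)]
      have hn1 : v ∉ Submodule.span F {w} := by
        intro h1
        obtain ⟨d, hd⟩ := Submodule.mem_span_singleton.mp h1
        have hd0 : d ≠ 0 := fun h0 => hv0 (by rw [← hd, h0, zero_smul])
        exact hwn (Submodule.mem_span_singleton.mpr ⟨d⁻¹, by
          rw [← hd, smul_smul, inv_mul_cancel₀ hd0, one_smul]⟩)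
      have hn2 : v ∉ Submodule.span F {v' - w} := by
        intro h1
        obtain ⟨d, hd⟩ := Submodule.mem_span_singleton.mp h1
        have hd0 : d ≠ 0 := fun h0 => hv0 (by rw [← hd, h0, zero_smul])
        apply hwn
        refine Submodule.mem_span_singleton.mpr ⟨c⁻¹ - d⁻¹, ?_⟩
        have e1 : c⁻¹ • v = v' := by rw [← hc, smul_smul, inv_mul_cancel₀ hc0, one_smul]
        have e2 : d⁻¹ • v = v' - w := by rw [← hd, smul_smul, inv_mul_cancel₀ hd0, one_smul]
        rw [sub_smul, e1, e2]; abel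
      have h1 := part w hw hn1 χ (hφ0 w hw χ hχ) hχ
      have h2 := part (v' - w) ((D i).sub_mem hv' hw) hn2 χ
        (hφ0 _ ((D i).sub_mem hv' hw) χ hχ) hχ
      have h3 := mul_mem h2 h1
      convert h3 using 1
      apply gl_ext
      intro x
      simp only [ap_mul, ap_tv, map_add, map_smul, hφ0 w hw χ hχ, smul_eq_mul, smul_sub]
      module
    · exact part v' hv' hn χ h hχ
  -- every pair of members
  have pairs : ∀ i' j', i' ≠ j' → ∀ v' ∈ D i', ∀ χ : (ι → F) →ₗ[F] F, ∀ h : χ v' = 0,
      (∀ l, l ≠ j' → ∀ x ∈ D l, χ x = 0) → tv v' χ h ∈ M := by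
    have move : ∀ p q : Fin t, p ≠ q →
        (∀ v' ∈ D p, ∀ χ : (ι → F) →ₗ[F] F, ∀ h : χ v' = 0,
          (∀ l, l ≠ q → ∀ x ∈ D l, χ x = 0) → tv v' χ h ∈ M) →
        ∀ a b : Fin t, a ≠ b → ∀ v' ∈ D (Equiv.swap a b p), ∀ χ : (ι → F) →ₗ[F] F,
          ∀ h : χ v' = 0, (∀ l, l ≠ Equiv.swap a b q → ∀ x ∈ D l, χ x = 0) → tv v' χ h ∈ M := by
      intro p q _ hpq a b hab v' hv' χ h hχ
      obtain ⟨σ, hσ, hmap⟩ := exists_swap_mem hD hab
      have hback : ∀ l, ∀ x ∈ D (Equiv.swap a b l), ap σ⁻¹ x ∈ D l := by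
        intro l x hx
        have he : (D l).map (apEquiv σ).toLinearMap = D (Equiv.swap a b l) :=
          Submodule.eq_of_le_of_finrank_eq (by rintro _ ⟨y, hy, rfl⟩; exact hmap l y hy)
            (by rw [LinearEquiv.finrank_map_eq, hD.finrank_eq, hD.finrank_eq])
        rw [← he] at hx
        obtain ⟨y, hy, rfl⟩ := hx
        simpa [ap_inv_ap] using hy
      have h1 : (χ.comp (apEquiv σ).toLinearMap) (ap σ⁻¹ v') = 0 := by simp [ap_ap_inv, h]
      have h2 := hpq _ (hback p v' hv') _ h1 fun l hl x hx => by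
        simpa using hχ (Equiv.swap a b l) (fun he => hl ((Equiv.injective _) he)) _ (hmap l x hx)
      have h3 := mul_mem (mul_mem (hHM hσ) h2) (inv_mem (hHM hσ))
      rw [conj_tv] at h3
      convert h3 using 1
      exact tv_eq_tv _ _ fun x => by simp [ap_ap_inv]
    intro i' j' hij'
    have h1 : ∀ v' ∈ D i', ∀ χ : (ι → F) →ₗ[F] F, ∀ h : χ v' = 0,
        (∀ l, l ≠ Equiv.swap i i' j → ∀ x ∈ D l, χ x = 0) → tv v' χ h ∈ M := by
      by_cases hii : i = i'
      · subst hii; simpa using hall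
      · simpa using move i j hij hall i i' hii
    have hne : Equiv.swap i i' j ≠ i' := by
      intro h
      have := congrArg (Equiv.swap i i') h
      rw [Equiv.swap_apply_self, Equiv.swap_apply_right] at this
      exact hij this.symm
    by_cases hjj : Equiv.swap i i' j = j'
    · exact hjj ▸ h1
    · have h2 := move i' _ (Ne.symm hne) h1 _ j' hjj
      rwa [Equiv.swap_apply_left, Equiv.swap_apply_of_ne_of_ne (Ne.symm hne) hij'] at h2
  refine specialLinear_le_of_fullCentre (S := ⋃ l, (D l : Set (ι → F)))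
    (by rw [Submodule.span_iUnion]; simpa using hD.iSup_eq_top) fun x hx φ hφ => ?_
  obtain ⟨l, hl⟩ := Set.mem_iUnion.mp hx
  have h0 : ∀ r, (φ.comp (comp hD r)) x = 0 := by
    intro r
    rw [LinearMap.comp_apply, comp_of_mem hD hl]
    split_ifs <;> simp [hφ]
  have hsum := tv_mem_sum (M := M) Finset.univ x (fun r => φ.comp (comp hD r)) h0 fun r _ => ?_
  · convert hsum using 2
    refine LinearMap.ext fun y => ?_
    rw [LinearMap.sum_apply]
    conv_lhs => rw [← sum_comp hD y, map_sum]
    rfl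
  · have hsupp : ∀ b, b ≠ r → ∀ y ∈ D b, (φ.comp (comp hD r)) y = 0 := fun b hb y hy => by
      simp [comp_of_mem hD hy, Ne.symm hb]
    by_cases hlr : l = r
    · subst hlr; exact htvH l x hl _ hsupp (h0 l)
    · exact pairs l r hlr x hl _ (h0 r) hsupp

end Decomp

end CfsgLib.Geometric
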