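import Cfsg.Agent.Lib.Geometric.Symp

/-!
The similarity group of a symplectic form is maximal in the special linear group.
-/

namespace CfsgLib.Geometric

open Matrix

variable {ι : Type} [Fintype ι] [DecidableEq ι] {F : Type*} [Field F]
variable {f : (ι → F) → (ι → F) → F} (hf : Cfsg.Geo.IsSymplecticForm f)
include hf

namespace Symp

/-- An invertible matrix preserving orthogonality is a similarity. -/
lemma mem_similarityGroup_of_orth {g : GL ι F}
    (h : ∀ u v, f u v = 0 → f (ap g u) (ap g v) = 0) : g ∈ Cfsg.Geo.similarityGroup f := by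
  by_cases hV : ∀ x : ι → F, x = 0
  · exact ⟨1, fun u v => by rw [hV u, hV v]; simp [zero_left hf]⟩
  push Not at hV
  obtain ⟨v₀, hv₀⟩ := hV
  obtain ⟨u₀, hu₀⟩ := (hf.nondegenerate v₀ hv₀).1
  set c := f (ap g u₀) (ap g v₀) / f u₀ v₀ with hc
  -- the ratio along a fixed second argument
  have hprop : ∀ v u u', f u' v ≠ 0 →
      f (ap g u) (ap g v) = f (ap g u') (ap g v) / f u' v * f u v := by
    intro v u u' hne
    have h0 : f (u - (f u v / f u' v) • u') v = 0 := by
      rw [sub_left hf, hf.bilinear.smul_left]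
      field_simp
      ring
    have := h _ _ h0
    rw [ap_sub, ap_smul, sub_left hf, hf.bilinear.smul_left, sub_eq_zero] at this
    rw [this]
    ring
  have hall : ∀ u v, f (ap g u) (ap g v) = c * f u v := by
    intro u v
    by_cases hv : v = 0
    · simp [hv, ap_zero, zero_right hf]
    obtain ⟨w, -, hw1, hw2⟩ : ∃ w ∈ (⊤ : Submodule F (ι → F)),
        w ∉ LinearMap.ker (fl hf v) ∧ w ∉ LinearMap.ker (fl hf v₀) := by
      refine exists_mem_notMem_notMem ?_ ?_
      · obtain ⟨x, hx⟩ := (hf.nondegenerate v hv).1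
        exact fun h => hx (by simpa using h (Submodule.mem_top (x := x)))
      · exact fun h => hu₀ (by simpa using h (Submodule.mem_top (x := u₀)))
    simp only [LinearMap.mem_ker, fl_apply] at hw1 hw2
    have hwv₀ : f (ap g w) (ap g v₀) = c * f w v₀ := hprop v₀ w u₀ hu₀
    -- the ratio along the fixed first argument `w`
    have hw3 : f (ap g w) (ap g v) = c * f w v := by
      have h0 : f w (v - (f w v / f w v₀) • v₀) = 0 := by
        rw [sub_right hf, hf.bilinear.smul_right]
        field_simp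
        ring
      have := h _ _ h0
      rw [ap_sub, ap_smul, sub_right hf, hf.bilinear.smul_right, sub_eq_zero, hwv₀] at this
      rw [this]
      field_simp
    rw [hprop v u w hw1, hw3]
    field_simp
  have hc0 : c ≠ 0 := by
    intro h0
    obtain ⟨x, hx⟩ := (hf.nondegenerate _ (ap_ne_zero g hv₀)).1
    apply hx
    have := hall (ap g⁻¹ x) v₀
    rwa [ap_ap_inv, h0, zero_mul] at this
  exact ⟨Units.mk0 c hc0, hall⟩

lemma tv_fl_mem_specialLinear (a b : ι → F) (h : f a b = 0) (c : F) :
    tv a (c • fl hf b) (by simp [h]) ∈ Cfsg.Geo.specialLinear ι F :=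
  tv_mem_specialLinear _ _ _

lemma similarityGroup_lt (hdim : 3 ≤ Fintype.card ι) :
    Cfsg.Geo.similarityGroup f ⊓ Cfsg.Geo.specialLinear ι F < Cfsg.Geo.specialLinear ι F := by
  refine lt_of_le_of_ne inf_le_right fun he => ?_
  obtain ⟨i⟩ : Nonempty ι := Fintype.card_pos_iff.mp (by omega)
  let a : ι → F := Pi.single i 1
  have ha : a ≠ 0 := by simp [a]
  obtain ⟨b, hb, hba⟩ : ∃ b, f b a = 0 ∧ b ∉ Submodule.span F {a} := by
    by_contra hc
    push Not at hc
    have hle : LinearMap.ker (fl hf a) ≤ Submodule.span F {a} := fun x hx => hc x (by simpa using hx)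
    have h1 := Submodule.finrank_mono hle
    have h2 := (fl hf a).finrank_range_add_finrank_ker
    have h3 := Submodule.finrank_le (LinearMap.range (fl hf a))
    rw [finrank_span_singleton ha] at h1
    rw [Module.finrank_self] at h3
    rw [Module.finrank_fintype_fun_eq_card] at h2
    omega
  have hab : f a b = 0 := (eq_zero_comm hf).mp hb
  obtain ⟨p, hp, hpb⟩ := exists_perp_ne hf hba
  have hpa : f p a = 0 := (mem_perp_span hf).mp hp
  set t := tv a ((1 : F) • fl hf b) (by simp [hab]) with ht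
  have hm : t ∈ Cfsg.Geo.similarityGroup f ⊓ Cfsg.Geo.specialLinear ι F := by
    rw [he]; exact tv_mem_specialLinear _ _ _
  obtain ⟨c, hc⟩ := hm.1
  have ht' : ∀ x, ap t x = x + f x b • a := fun x => by rw [ht, ap_tv, one_smul, fl_apply]
  obtain ⟨w, hw⟩ := (hf.nondegenerate a ha).2
  have hc1 : (c : F) = 1 := by
    have h3 := hc a w
    rw [← ap_def, ← ap_def, ht', ht', hab, zero_smul, add_zero, hf.bilinear.add_right,
      hf.bilinear.smul_right, hf.alternating a, mul_zero, add_zero] at h3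
    exact (mul_left_eq_self₀.mp h3.symm).resolve_right hw
  have hpb' : f p b ≠ 0 := hpb ∘ (eq_zero_comm hf).mp
  have h4 := hc p w
  rw [← ap_def, ← ap_def, ht', ht', hc1, one_mul] at h4
  simp only [hf.bilinear.add_left, hf.bilinear.add_right, hf.bilinear.smul_left,
    hf.bilinear.smul_right, hf.alternating a, hpa, mul_zero, add_zero, add_eq_left,
    mul_eq_zero] at h4
  exact h4.elim hpb' hw

/-- The similarities of a symplectic form are maximal in the special linear group. -/
theorem similarityGroup_isMaximalIn (hdim : 3 ≤ Fintype.card ι) :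
    Cfsg.Geo.IsMaximalIn (Cfsg.Geo.specialLinear ι F)
      (Cfsg.Geo.similarityGroup f ⊓ Cfsg.Geo.specialLinear ι F) := by
  refine ⟨similarityGroup_lt hf hdim, fun M hHM hMS => ?_⟩
  by_cases hM : M ≤ Cfsg.Geo.similarityGroup f
  · exact Or.inl (le_antisymm (le_inf hM hMS) hHM)
  refine Or.inr (le_antisymm hMS ?_)
  obtain ⟨g, hgM, hg⟩ := SetLike.not_le_iff_exists.mp hM
  have hT : ∀ v c, T hf v c ∈ M := fun v c =>
    hHM ⟨isom_le_similarityGroup f (T_mem_isom hf v c), T_mem_specialLinear hf v c⟩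
  let S : (ι → F) → (ι → F) → Prop := fun a b =>
    f a b = 0 ∧ ∀ (c : F) (h : (c • fl hf b) a = 0), tv a (c • fl hf b) h ∈ M
  -- a pair of independent vectors in `S`
  obtain ⟨a₀, b₀, ha₀, hb₀, hS₀⟩ : ∃ a b, a ≠ 0 ∧ b ∉ Submodule.span F {a} ∧ S a b := by
    obtain ⟨u, v, huv, hguv⟩ : ∃ u v, f u v = 0 ∧ f (ap g u) (ap g v) ≠ 0 := by
      by_contra hc
      push Not at hc
      exact hg (mem_similarityGroup_of_orth hf hc)
    have hv : v ≠ 0 := fun h => hguv (by simp [h, ap_zero, zero_right hf])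
    obtain ⟨b, hb⟩ := exists_eq_fl hf ((fl hf v).comp (apEquiv g⁻¹).toLinearMap)
    have hb' : ∀ x, f x b = f (ap g⁻¹ x) v := fun x => by
      rw [← fl_apply hf, hb]; rfl
    refine ⟨ap g v, b, ap_ne_zero g hv, fun hmem => ?_, ?_, fun c h => ?_⟩
    · obtain ⟨c, rfl⟩ := Submodule.mem_span_singleton.mp hmem
      have h1 := hb' (ap g u)
      rw [ap_inv_ap, huv, hf.bilinear.smul_right, mul_eq_zero] at h1
      have hc : c = 0 := h1.resolve_right hguv
      obtain ⟨x, hx⟩ := (hf.nondegenerate v hv).1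
      have h2 := hb' (ap g x)
      rw [hc, zero_smul, zero_right hf, ap_inv_ap] at h2
      exact hx h2.symm
    · rw [eq_zero_comm hf, eq_zero_comm hf, hb', ap_inv_ap, hf.alternating]
    · have h2 := mul_mem (mul_mem hgM (hT v c)) (inv_mem hgM)
      rw [T, conj_tv] at h2
      convert h2 using 2
      refine LinearMap.ext fun x => ?_
      simp [hb']
  -- `S` is invariant under the isometries in `M`
  have hconj : ∀ h ∈ M, h ∈ isom f → ∀ a b, S a b → S (ap h a) (ap h b) := by
    intro h hhM hhI a b hS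
    refine ⟨by rw [(mem_isom_iff.mp hhI)]; exact hS.1, fun c hc => ?_⟩
    have hc' : (c • fl hf b) a = 0 := by simp [hS.1]
    have h2 := mul_mem (mul_mem hhM (hS.2 c hc')) (inv_mem hhM)
    rw [conj_tv] at h2
    convert h2 using 2
    refine LinearMap.ext fun x => ?_
    have := (mem_isom_iff.mp hhI) (ap h⁻¹ x) b
    rw [ap_ap_inv] at this
    simp [this]
  have hall : ∀ a b, a ≠ 0 → b ∉ Submodule.span F {a} → f a b = 0 → S a b := by
    intro x y hx hy hxy
    obtain ⟨p, hp, hpne⟩ :=
      exists_perp_ne hf (U := ⊥) (x := a₀) (by simpa using ha₀)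
    obtain ⟨q, hq, hqne⟩ := exists_perp_ne hf (U := ⊥) (x := x) (by simpa using hx)
    obtain ⟨h₁, hh₁, hi₁, -, hm₁⟩ := exists_move hf (M := M) (U := ⊥) (fun v _ c => hT v c)
      (mem_perp_bot hf _) ⟨p, hp, hpne⟩ ⟨q, hq, hqne⟩
    have hS₁ := hconj h₁ hh₁ hi₁ _ _ hS₀
    rw [hm₁] at hS₁
    have hb₁ : ap h₁ b₀ ∉ Submodule.span F {x} := by
      intro h
      obtain ⟨c, hc⟩ := Submodule.mem_span_singleton.mp h
      apply hb₀
      rw [← hm₁, ← ap_smul] at hc
      exact Submodule.mem_span_singleton.mpr ⟨c, ap_injective h₁ hc⟩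
    obtain ⟨h₂, hh₂, hi₂, hfix, hm₂⟩ := exists_move hf (M := M)
      (U := Submodule.span F {x}) (fun v _ c => hT v c) (x := ap h₁ b₀) (y := y)
      ((mem_perp_span hf).mpr (by
        rw [sub_left hf, (eq_zero_comm hf).mp hxy, (eq_zero_comm hf).mp hS₁.1, sub_zero]))
      (exists_perp_ne hf hb₁) (exists_perp_ne hf hy)
    have hS₂ := hconj h₂ hh₂ hi₂ _ _ hS₁
    rwa [hfix x (Submodule.mem_span_singleton_self x), hm₂] at hS₂
  refine specialLinear_le_of_tv_mem fun a φ h => ?_
  obtain ⟨b, rfl⟩ := exists_eq_fl hf φ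
  by_cases ha : a = 0
  · have : tv a (fl hf b) h = 1 := gl_ext fun x => by simp [ha]
    rw [this]
    exact one_mem M
  by_cases hb : b ∈ Submodule.span F {a}
  · obtain ⟨c, rfl⟩ := Submodule.mem_span_singleton.mp hb
    convert hT a c using 1
    exact tv_eq_tv _ _ fun x => by simp
  · have := (hall a b ha hb h).2 1 (by simpa using h)
    simpa using this

end Symp

end CfsgLib.Geometric
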