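import Cfsg.Agent.S5886
import Cfsg.Agent.Lib.Geometric.LinearMonomialSmall
import Cfsg.Agent.Lib.Geometric.LinearTensorMax
import Cfsg.Agent.Lib.Geometric.LinearSubfield
import Cfsg.Agent.Lib.Geometric.LinearStab
import Cfsg.Agent.Lib.Geometric.LinearSp
import Cfsg.Agent.Lib.Geometric.LinearUnitary
import Cfsg.Agent.Lib.Geometric.Orth.SimilaritySmall

/-!
The geometric types of maximal subgroups of the special linear group in dimensions six to twelve.
-/

set_option autoImplicit false

namespace CfsgLib.Geometric.SmallLinear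

open CfsgLib.Geometric CfsgLib.Geometric.Orth

theorem quadSimilarity_isMaximalIn {F : Type*} [Field F] [Fintype F] (n : ℕ) (hn : 6 ≤ n) (hodd : Odd (Fintype.card F)) (Q : (Fin n → F) → F) (hQ : Cfsg.Geo.IsNondegenerateQuadraticForm Q) : Cfsg.Geo.IsMaximalIn (Cfsg.Geo.specialLinear (Fin n) F) (Cfsg.Geo.quadSimilarityGroup Q ⊓ Cfsg.Geo.specialLinear (Fin n) F) := by
  classical
  have hnd := nondeg_toQF hQ
  have hn' : 6 ≤ Fintype.card (Fin n) := by rw [Fintype.card_fin]; exact hn
  have h2 : (2 : F) ≠ 0 := by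
    intro h
    have hchar : ringChar F = 2 := by
      obtain ⟨p, hp⟩ := CharP.exists F
      have hpp : p.Prime := CharP.char_is_prime F p
      have h2' : ((2 : ℕ) : F) = 0 := by exact_mod_cast h
      have := (CharP.cast_eq_zero_iff F p 2).mp h2'
      rw [ringChar.eq F p]
      exact (Nat.prime_dvd_prime_iff_eq hpp Nat.prime_two).mp this
    have := FiniteField.even_card_iff_char_two.mp hchar
    rw [Nat.odd_iff] at hodd
    omega
  refine ⟨lt_of_le_of_ne inf_le_right fun he => ?_, fun M hHM hMS => ?_⟩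
  · obtain ⟨z, -, hz0, hz⟩ := Orth.exists_singular_third (Q := toQF hQ) h2 (k := 0) ![] (by omega)
    have hzz : pf (toQF hQ) z z = 0 := by rw [pf_apply, polar_self', hz, mul_zero]
    have hm : tv z (pf (toQF hQ) z) hzz ∈ Cfsg.Geo.quadSimilarityGroup Q ⊓ Cfsg.Geo.specialLinear (Fin n) F := by
      rw [he]; exact tv_mem_specialLinear _ _ _
    obtain ⟨c, hc⟩ := hm.1
    have hc' : ∀ v, toQF hQ (ap (tv z (pf (toQF hQ) z) hzz) v) = (c : F) * toQF hQ v := hc
    obtain ⟨p, hp⟩ : ∃ p, QuadraticMap.polar (toQF hQ) p z ≠ 0 := by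
      by_contra h
      push Not at h
      exact hz0 (hnd z fun y => by rw [QuadraticMap.polar_comm]; exact h y)
    have e0 : QuadraticMap.polar (toQF hQ) z z = 0 := hzz
    have e1 := hc' (p + z)
    have e2 := hc' p
    simp only [ap_tv, map_add, pf_apply, e0, zero_smul, add_zero] at e1 e2
    have e3 : ∀ s : F, toQF hQ (p + s • z) = toQF hQ p + s * QuadraticMap.polar (toQF hQ) p z :=
      fun s => by
        rw [QuadraticMap.map_add (⇑(toQF hQ)), QuadraticMap.map_smul, hz,
          QuadraticMap.polar_smul_right, smul_zero, add_zero, smul_eq_mul]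
    rw [e3] at e2
    rw [show p + z + QuadraticMap.polar (toQF hQ) p z • z =
      p + (1 + QuadraticMap.polar (toQF hQ) p z) • z by module, e3,
      show p + z = p + (1 : F) • z by rw [one_smul], e3] at e1
    have hc1 : (c : F) = 1 := by
      refine (mul_right_cancel₀ hp ?_).symm
      linear_combination e1 - e2
    rw [hc1] at e2
    exact hp (mul_self_eq_zero.mp (by linear_combination e2))
  by_cases hM : M ≤ Cfsg.Geo.quadSimilarityGroup Q
  · exact Or.inl (le_antisymm (le_inf hM hMS) hHM)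
  refine Or.inr (le_antisymm hMS ?_)
  obtain ⟨g, hgM, hg⟩ := SetLike.not_le_iff_exists.mp hM
  exact Small.specialLinear_le_of_not_similarity hnd h2 hn'
    (fun k hk hsim => hHM ⟨hsim, hk⟩) ⟨g, hgM, hg⟩


variable {F : Type*} [Field F] [Fintype F] {n : ℕ}

lemma monomial_case (hn : n = 6 ∨ n = 10 ∨ n = 12) (hq : 5 ≤ Fintype.card F) :
    (2 : F) ≠ 0 ∨ ∃ γ : Fˣ, γ ^ Fintype.card (Fin n) ≠ 1 := by
  classical
  by_contra h
  push Not at h
  obtain ⟨x, hx⟩ := IsCyclic.exists_generator (α := Fˣ)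
  have ho : orderOf x = Fintype.card F - 1 := by
    rw [orderOf_eq_card_of_forall_mem_zpowers hx, Nat.card_units, Nat.card_eq_fintype_card]
  have hd := orderOf_dvd_of_pow_eq_one (h.2 x)
  rw [ho, Fintype.card_fin] at hd
  have : CharP F 2 := CharTwo.of_one_ne_zero_of_two_eq_zero one_ne_zero h.1
  obtain ⟨⟨k, hk0⟩, -, hk⟩ := FiniteField.card F 2
  change Fintype.card F = 2 ^ k at hk
  have hle := Nat.le_of_dvd (by omega) hd
  rw [hk] at hd hle hq
  have hk4 : k < 4 := by
    by_contra hk'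
    have := Nat.pow_le_pow_right (show 1 ≤ 2 by norm_num) (not_lt.mp hk')
    omega
  interval_cases k <;> rcases hn with rfl | rfl | rfl <;> revert hd hle hq <;> decide

lemma monomial (hn : n = 6 ∨ n = 10 ∨ n = 12) (hq : 5 ≤ Fintype.card F) {t : ℕ}
    {D : Fin t → Submodule F (Fin n → F)} (hD : Cfsg.Geo.IsMDecomposition 1 D) :
    Cfsg.Geo.IsMaximalIn (Cfsg.Geo.specialLinear (Fin n) F)
      (Cfsg.Geo.decompositionStabilizer D ⊓ Cfsg.Geo.specialLinear (Fin n) F) :=
  Decomp.decompStab_isMaximalIn_of_one_small hD rfl hq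
    (by rw [Fintype.card_fin]; omega) (monomial_case hn hq)

lemma unitary (hn : 6 ≤ n) {σ : F ≃+* F} {f : (Fin n → F) → (Fin n → F) → F}
    (hf : Cfsg.Geo.IsUnitaryForm σ f) : Cfsg.Geo.IsMaximalIn (Cfsg.Geo.specialLinear (Fin n) F)
      (Cfsg.Geo.similarityGroup f ⊓ Cfsg.Geo.specialLinear (Fin n) F) := by
  obtain ⟨ζ, hζ, hsk⟩ := exists_skewForm_of_unitary hf
  have hmax := Unitary.similarityGroup_isMaximalIn hsk (by rw [Fintype.card_fin]; omega)
  rwa [similarityGroup_mul_const hζ] at hmax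

lemma exists_ne_zero_one (hq : 3 ≤ Fintype.card F) : ∃ c : F, c ≠ 0 ∧ c ≠ 1 := by
  classical
  obtain ⟨c, -, hc⟩ := Finset.exists_mem_notMem_of_card_lt_card (t := (Finset.univ : Finset F))
    (s := {0, 1}) (lt_of_le_of_lt Finset.card_le_two (by rw [Finset.card_univ]; omega))
  simp only [Finset.mem_insert, Finset.mem_singleton, not_or] at hc
  exact ⟨c, hc⟩

end CfsgLib.Geometric.SmallLinear
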