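import Cfsg.Agent.Lib.Geometric.Tensor

/-!
Over two elements the stabiliser of a tensor product with a plane normalises a field of order
four, so it is not maximal in the special linear group.
-/

namespace CfsgLib.Geometric

open Matrix

variable {ι : Type} [Fintype ι] [DecidableEq ι] {F : Type*} [Field F] [Fintype F]

lemma two_cases (hq : Fintype.card F = 2) (x : F) : x = 0 ∨ x = 1 := by
  classical
  by_contra h
  push Not at h
  have h1 := Finset.card_le_univ ({0, 1, x} : Finset F)
  have h2 : ({0, 1, x} : Finset F).card = 3 :=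
    Finset.card_eq_three.mpr ⟨0, 1, x, zero_ne_one, Ne.symm h.1, Ne.symm h.2, rfl⟩
  omega

/-- The stabiliser of a tensor decomposition with a plane is not maximal over two elements. -/
theorem exists_between_tensor_two (hq : Fintype.card F = 2) {n₂ : ℕ} (hn₂ : 2 ≤ n₂)
    (e : ι ≃ Fin 2 × Fin n₂) (P : GL ι F) :
    ∃ K : Subgroup (GL ι F),
      Cfsg.Geo.tensorProductSubgroup 2 n₂ e P ⊓ Cfsg.Geo.specialLinear ι F < K ∧
        K < Cfsg.Geo.specialLinear ι F := by
  classical
  have h2 : (2 : F) = 0 := by
    have h := Nat.cast_card_eq_zero F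
    rw [hq] at h
    simpa using h
  have hdet1 : ∀ g : GL ι F, (g : Matrix ι ι F).det = 1 := fun g =>
    (two_cases hq _).resolve_left (Matrix.GeneralLinearGroup.det_ne_zero g)
  have hmemS : ∀ g : GL ι F, g ∈ Cfsg.Geo.specialLinear ι F := fun g =>
    (mem_specialLinear_iff g).mpr (hdet1 g)
  set c : Matrix (Fin 2) (Fin 2) F := !![0, 1; 1, 1] with hc
  set C : GL (Fin 2) F := Matrix.GeneralLinearGroup.mkOfDetNeZero c (by
    simp [hc, Matrix.det_fin_two]) with hC
  -- the action of `C` on the first factor
  let j0 : Fin n₂ := ⟨0, by omega⟩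
  let j1 : Fin n₂ := ⟨1, by omega⟩
  have hj : j0 ≠ j1 := by simp [j0, j1, Fin.ext_iff]
  obtain ⟨z, hz⟩ : ∃ z : GL ι F, ∀ x y, ap z (Tensor.pt e P x y) = Tensor.pt e P (ap C x) y := by
    let k : (Fin 2 × Fin n₂ → F) ≃ₗ[F] (Fin 2 × Fin n₂ → F) :=
      { toFun := fun w a => ap C (fun i => w (i, a.2)) a.1
        map_add' := fun u v => funext fun a => congrFun (ap_add C _ _) a.1
        map_smul' := fun r u => funext fun a => congrFun (ap_smul C r _) a.1
        invFun := fun w a => ap C⁻¹ (fun i => w (i, a.2)) a.1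
        left_inv := fun w => funext fun a => congrFun (ap_inv_ap C _) a.1
        right_inv := fun w => funext fun a => congrFun (ap_ap_inv C _) a.1 }
    refine ⟨ofEquiv ((Tensor.coords e P).symm.trans (k.trans (Tensor.coords e P))), fun x y => ?_⟩
    rw [ap_ofEquiv]
    simp only [LinearEquiv.trans_apply, Tensor.pt, LinearEquiv.symm_apply_apply]
    congr 1
    funext a
    change ap C (fun i => x i * y a.2) a.1 = _
    rw [show (fun i => x i * y a.2) = y a.2 • x from funext fun i => mul_comm _ _, ap_smul,
      Pi.smul_apply, smul_eq_mul, mul_comm]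
  set K := Subgroup.normalizer (Subgroup.zpowers z : Set (GL ι F)) with hK
  have hext : ∀ g h : GL ι F, (∀ x y, ap g (Tensor.pt e P x y) = ap h (Tensor.pt e P x y)) →
      g = h := by
    intro g h hgh
    refine gl_ext fun v => ?_
    obtain ⟨w, rfl⟩ := (Tensor.coords e P).surjective v
    have : (apEquiv g).toLinearMap.comp (Tensor.coords e P).toLinearMap =
        (apEquiv h).toLinearMap.comp (Tensor.coords e P).toLinearMap := by
      refine LinearMap.pi_ext' fun a => LinearMap.ext_ring ?_
      simp only [LinearMap.comp_apply, LinearEquiv.coe_coe, apEquiv_apply, LinearMap.single_apply]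
      rw [← Tensor.pt_single, hgh]
    exact LinearMap.congr_fun this w
  have hcases : ∀ a : GL (Fin 2) F, a * C * a⁻¹ = C ∨ a * C * a⁻¹ = C⁻¹ := by
    intro a
    set Y := a * C * a⁻¹ with hY
    have htr : (Y : Matrix (Fin 2) (Fin 2) F).trace = 1 := by
      rw [hY, Units.val_mul, Units.val_mul, Matrix.trace_units_conj]
      simp [hC, hc, Matrix.trace_fin_two]
    have hdt : (Y : Matrix (Fin 2) (Fin 2) F).det = 1 :=
      (two_cases hq _).resolve_left (Matrix.GeneralLinearGroup.det_ne_zero Y)
    rw [Matrix.trace_fin_two] at htr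
    rw [Matrix.det_fin_two] at hdt
    rcases two_cases hq ((Y : Matrix (Fin 2) (Fin 2) F) 0 0) with h0 | h0 <;>
      rcases two_cases hq ((Y : Matrix (Fin 2) (Fin 2) F) 0 1) with h1 | h1 <;>
        rcases two_cases hq ((Y : Matrix (Fin 2) (Fin 2) F) 1 0) with h3 | h3 <;>
          simp only [h0, h1, h3, zero_add, mul_zero, zero_mul, sub_zero, zero_sub, one_mul,
            mul_one] at htr hdt <;>
          first
            | (exfalso; rw [htr] at hdt; simp at hdt; done)
            | (exfalso; exact one_ne_zero (α := F) (by linear_combination -hdt); done)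
            | (exfalso; exact one_ne_zero (α := F) (by linear_combination htr - hdt); done)
            | skip
    · left
      refine Units.ext (Matrix.ext fun i l => ?_)
      fin_cases i <;> fin_cases l <;> simp [hC, hc, h0, h1, h3, htr]
    · right
      refine eq_inv_of_mul_eq_one_left (Units.ext (Matrix.ext fun i l => ?_))
      have h4 : (Y : Matrix (Fin 2) (Fin 2) F) 1 1 = 0 := by linear_combination htr
      fin_cases i <;> fin_cases l <;>
        simp [Matrix.mul_apply, Fin.sum_univ_two, hC, hc, h0, h1, h3, h4] <;>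
        linear_combination h2
  have hzinv : ∀ x y, ap z⁻¹ (Tensor.pt e P x y) = Tensor.pt e P (ap C⁻¹ x) y := fun x y => by
    apply ap_injective z
    rw [ap_ap_inv, hz, ap_ap_inv]
  have hH : ∀ g ∈ Cfsg.Geo.tensorProductSubgroup 2 n₂ e P, g * z * g⁻¹ ∈ Subgroup.zpowers z := by
    intro g hg
    obtain ⟨a, b, hab⟩ := (Tensor.mem_iff e P g).mp hg
    have hinv : ∀ x y, ap g⁻¹ (Tensor.pt e P x y) = Tensor.pt e P (ap a⁻¹ x) (ap b⁻¹ y) :=
      fun x y => by
        apply ap_injective g
        rw [ap_ap_inv, hab, ap_ap_inv, ap_ap_inv]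
    rcases hcases a with h | h
    · convert Subgroup.mem_zpowers z using 1
      refine hext _ _ fun x y => ?_
      rw [ap_mul, ap_mul, hinv, hz, hab, hz, ap_ap_inv, ← ap_mul, ← ap_mul, h]
    · convert inv_mem (Subgroup.mem_zpowers z) using 1
      refine hext _ _ fun x y => ?_
      rw [ap_mul, ap_mul, hinv, hz, hab, hzinv, ap_ap_inv, ← ap_mul, ← ap_mul, h]
  refine ⟨K ⊓ Cfsg.Geo.specialLinear ι F, ?_, ?_⟩
  · have hle : Cfsg.Geo.tensorProductSubgroup 2 n₂ e P ⊓ Cfsg.Geo.specialLinear ι F ≤
        K ⊓ Cfsg.Geo.specialLinear ι F := by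
      refine le_inf (fun g hg => ?_) inf_le_right
      have fwd : ∀ g ∈ Cfsg.Geo.tensorProductSubgroup 2 n₂ e P, ∀ h ∈ Subgroup.zpowers z,
          g * h * g⁻¹ ∈ Subgroup.zpowers z := by
        intro g hg h hh
        obtain ⟨k, rfl⟩ := Subgroup.mem_zpowers_iff.mp hh
        rw [← conj_zpow]
        exact zpow_mem (hH g hg) k
      rw [hK, Subgroup.mem_normalizer_iff]
      intro h
      refine ⟨fwd g hg.1 h, fun h1 => ?_⟩
      simpa [mul_assoc] using fwd g⁻¹ (inv_mem hg.1) _ h1
    refine lt_of_le_of_ne hle fun he => ?_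
    -- a transvection linear over the field of order four
    set e0 : Fin 2 → F := Pi.single 0 1 with he0
    set v : Fin n₂ → F := Pi.single j0 1 with hv
    let L : (ι → F) →ₗ[F] (ι → F) :=
      (Tensor.coords e P).toLinearMap.comp ((LinearMap.pi fun a : Fin 2 × Fin n₂ =>
        (v a.2) • ((LinearMap.proj a.1).comp ((apEquiv C).toLinearMap.comp
          (LinearMap.pi fun i => LinearMap.proj (i, j1))))).comp
        (Tensor.coords e P).symm.toLinearMap)
    have hL : ∀ x y, L (Tensor.pt e P x y) = y j1 • Tensor.pt e P (ap C x) v := fun x y => by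
      simp only [L, LinearMap.comp_apply, LinearEquiv.coe_coe, Tensor.pt,
        LinearEquiv.symm_apply_apply, ← map_smul]
      congr 1
      funext a
      have : (LinearMap.pi fun i => LinearMap.proj (R := F) (φ := fun _ : Fin 2 × Fin n₂ => F) (i, j1))
          (fun b : Fin 2 × Fin n₂ =>
          x b.1 * y b.2) = y j1 • x := funext fun i => mul_comm _ _
      change v a.2 * ap C ((LinearMap.pi fun i => LinearMap.proj (R := F)
          (φ := fun _ : Fin 2 × Fin n₂ => F) (i, j1))
        (fun b : Fin 2 × Fin n₂ => x b.1 * y b.2)) a.1 = y j1 * (ap C x a.1 * v a.2)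
      rw [this, ap_smul, Pi.smul_apply, smul_eq_mul]
      ring
    have hLL : ∀ w, L (L w) = 0 := by
      intro w
      have : L.comp L = 0 := by
        have hh : (L.comp L).comp (Tensor.coords e P).toLinearMap = 0 := by
          refine LinearMap.pi_ext' fun a => LinearMap.ext_ring ?_
          simp only [LinearMap.comp_apply, LinearEquiv.coe_coe, LinearMap.single_apply,
            ← Tensor.pt_single, hL, map_smul]
          simp [hv, hj.symm]
        refine LinearMap.ext fun u => ?_
        obtain ⟨r, rfl⟩ := (Tensor.coords e P).surjective u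
        exact LinearMap.congr_fun hh r
      exact LinearMap.congr_fun this w
    set t := ofEquiv (LinearEquiv.ofInvolutive (LinearMap.id + L) fun w => by
      simp only [LinearMap.add_apply, LinearMap.id_apply, map_add, hLL, add_zero]
      rw [add_assoc, ← two_smul F, h2, zero_smul, add_zero]) with ht
    have hap : ∀ x y, ap t (Tensor.pt e P x y) =
        Tensor.pt e P x y + y j1 • Tensor.pt e P (ap C x) v := fun x y => by
      rw [ht, ap_ofEquiv, ← hL]
      rfl
    have hcomm : t * z = z * t := hext _ _ fun x y => by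
      rw [ap_mul, ap_mul, hz, hap, hap, ap_add, ap_smul, hz, hz]
    have htK : t ∈ K ⊓ Cfsg.Geo.specialLinear ι F := by
      refine ⟨Subgroup.mem_normalizer_iff.mpr fun h => ?_, hmemS t⟩
      have hc : ∀ h ∈ Subgroup.zpowers z, t * h * t⁻¹ = h := fun h hh => by
        obtain ⟨k, rfl⟩ := Subgroup.mem_zpowers_iff.mp hh
        rw [(Commute.zpow_right hcomm k).eq, mul_inv_cancel_right]
      refine ⟨fun hh => by rw [hc h hh]; exact hh, fun hh => ?_⟩
      have := hc _ hh
      have h' : t * h * t⁻¹ = h := mul_left_cancel (mul_right_cancel this)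
      rwa [h'] at hh
    rw [← he] at htK
    have hz1 : ∀ y, ap t (Tensor.pt e P e0 y) = Tensor.pt e P e0 y + y j1 • Tensor.pt e P (ap C e0) v :=
      hap e0
    obtain ⟨a, b, hab⟩ := (Tensor.mem_iff e P t).mp htK.1
    have hfix : ap t (Tensor.pt e P e0 v) = Tensor.pt e P e0 v := by
      rw [hz1]; simp [hv, hj.symm]
    have hC0 : ap C e0 = Pi.single 1 1 := by
      funext i
      fin_cases i <;> simp [ap_def, hC, hc, he0]
    set y1 : Fin n₂ → F := Pi.single j1 1 with hy1
    have hmain := (hab e0 y1).symm.trans (hz1 y1)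
    have hfix' := (hab e0 v).symm.trans hfix
    have hk := (Tensor.coords e P).injective hfix'
    have ha1 : ap a e0 1 = 0 := by
      have h1 := congrFun hk (1, j0)
      have h0 := congrFun hk (0, j0)
      simp [he0, hv] at h1 h0
      rcases h1 with h1 | h1
      · exact h1
      · rw [h1, mul_zero] at h0; exact absurd h0 zero_ne_one
    rw [show y1 j1 = 1 by simp [hy1], one_smul, hC0, Tensor.pt, Tensor.pt, Tensor.pt,
      ← map_add] at hmain
    have := congrFun ((Tensor.coords e P).injective hmain) (1, j0)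
    rw [he0] at ha1
    simp [ha1, he0, hv, hy1] at this
  · refine lt_of_le_of_ne inf_le_right fun he => ?_
    set v0 := Tensor.pt e P (Pi.single 0 1) (Pi.single j0 1) with hv0
    let φ : (ι → F) →ₗ[F] F :=
      (LinearMap.proj ((0 : Fin 2), j1)).comp (Tensor.coords e P).symm.toLinearMap
    have hφ : ∀ x y, φ (Tensor.pt e P x y) = x 0 * y j1 := fun x y => by
      simp [φ, Tensor.pt]
    have hφ0 : φ v0 = 0 := by simp [hv0, hφ, hj.symm]
    have hm : tv v0 φ hφ0 ∈ K ⊓ Cfsg.Geo.specialLinear ι F := by rw [he]; exact hmemS _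
    set t := tv v0 φ hφ0 with ht
    obtain ⟨k, hk⟩ := Subgroup.mem_zpowers_iff.mp
      (((Subgroup.mem_normalizer_iff).mp hm.1 z).mp (Subgroup.mem_zpowers z))
    have hpow : ∀ k : ℤ, ∀ x y, ap (z ^ k) (Tensor.pt e P x y) = Tensor.pt e P (ap (C ^ k) x) y := by
      intro k
      induction k using Int.induction_on with
      | zero => simp
      | succ k ih => intro x y; rw [_root_.zpow_add_one, _root_.zpow_add_one, ap_mul, hz, ih, ← ap_mul]
      | pred k ih => intro x y; rw [_root_.zpow_sub_one, _root_.zpow_sub_one, ap_mul, hzinv, ih, ← ap_mul]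
    set x1 : Fin 2 → F := Pi.single 1 1 with hx1
    set y1 : Fin n₂ → F := Pi.single j1 1 with hy1
    have hC1 : ap C x1 = 1 := by
      funext i
      fin_cases i <;> simp [ap_def, hC, hc, hx1]
    have ht1 : ap t⁻¹ (Tensor.pt e P x1 y1) = Tensor.pt e P x1 y1 := by
      rw [ht, tv_inv, ap_tv]; simp [hφ, hx1]
    have h := congrArg (fun g => ap g (Tensor.pt e P x1 y1)) hk
    simp only [ap_mul, ht1, hz, hpow] at h
    rw [ht, ap_tv, hφ, hC1, hy1, Pi.single_eq_same, Pi.one_apply, one_mul, one_smul, hv0,
      Tensor.pt, Tensor.pt, Tensor.pt, ← map_add] at h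
    have := congrFun ((Tensor.coords e P).injective h) (0, j0)
    simp [hj] at this

end CfsgLib.Geometric
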