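import Cfsg.Agent.Lib.Geometric.Basic

/-!
Pure tensors for a tensor decomposition of `ι → F`, the decomposition attached to a basis of one
factor, and membership in the stabiliser of the tensor decomposition.
-/

namespace CfsgLib.Geometric

open Matrix
open scoped Kronecker

variable {ι : Type} [Fintype ι] [DecidableEq ι] {F : Type*} [Field F]
variable {n₁ n₂ : ℕ} (e : ι ≃ Fin n₁ × Fin n₂) (P : GL ι F)

namespace Tensor

/-- Coordinates along a tensor decomposition. -/
def coords : (Fin n₁ × Fin n₂ → F) ≃ₗ[F] (ι → F) :=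
  (LinearEquiv.funCongrLeft F F e).trans (apEquiv P)

lemma coords_apply (y : Fin n₁ × Fin n₂ → F) : coords e P y = ap P (y ∘ e) := rfl

/-- The pure tensor of `x` and `y`. -/
def pt (x : Fin n₁ → F) (y : Fin n₂ → F) : ι → F :=
  coords e P fun a => x a.1 * y a.2

/-- Tensoring with a fixed vector of the first factor. -/
def ptr (x : Fin n₁ → F) : (Fin n₂ → F) →ₗ[F] (ι → F) where
  toFun := pt e P x
  map_add' y y' := by
    simp only [pt, ← map_add]
    exact congrArg _ (funext fun a => mul_add _ _ _)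
  map_smul' c y := by
    simp only [pt, RingHom.id_apply, ← map_smul]
    exact congrArg _ (funext fun a => mul_left_comm _ _ _)

@[simp] lemma ptr_apply (x : Fin n₁ → F) (y : Fin n₂ → F) : ptr e P x y = pt e P x y := rfl

lemma pt_smul_left (c : F) (x : Fin n₁ → F) (y : Fin n₂ → F) :
    pt e P (c • x) y = c • pt e P x y := by
  simp only [pt, ← map_smul]
  exact congrArg _ (funext fun a => mul_assoc _ _ _)

lemma pt_smul_right (c : F) (x : Fin n₁ → F) (y : Fin n₂ → F) :
    pt e P x (c • y) = c • pt e P x y := (ptr e P x).map_smul c y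

lemma pt_add_left (x x' : Fin n₁ → F) (y : Fin n₂ → F) :
    pt e P (x + x') y = pt e P x y + pt e P x' y := by
  simp only [pt, ← map_add]
  exact congrArg _ (funext fun a => add_mul _ _ _)

lemma pt_zero_right (x : Fin n₁ → F) : pt e P x 0 = 0 := (ptr e P x).map_zero

lemma pt_inj_right {x : Fin n₁ → F} (hx : x ≠ 0) {y y' : Fin n₂ → F}
    (h : pt e P x y = pt e P x y') : y = y' := by
  obtain ⟨i, hi⟩ := Function.ne_iff.mp hx
  funext j
  exact mul_left_cancel₀ hi (congrFun ((coords e P).injective h) (i, j))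

lemma pt_inj_left {y : Fin n₂ → F} (hy : y ≠ 0) {x x' : Fin n₁ → F}
    (h : pt e P x y = pt e P x' y) : x = x' := by
  obtain ⟨j, hj⟩ := Function.ne_iff.mp hy
  funext i
  exact mul_right_cancel₀ hj (congrFun ((coords e P).injective h) (i, j))

lemma pt_single (a : Fin n₁ × Fin n₂) :
    pt e P (Pi.single a.1 1) (Pi.single a.2 1) = coords e P (Pi.single a 1) := by
  refine congrArg (coords e P) (funext fun b => ?_)
  obtain ⟨a₁, a₂⟩ := a
  obtain ⟨b₁, b₂⟩ := b
  simp only [Pi.single_apply, Prod.mk.injEq]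
  split_ifs <;> simp_all

lemma kronecker_mulVec (A : Matrix (Fin n₁) (Fin n₁) F) (B : Matrix (Fin n₂) (Fin n₂) F)
    (x : Fin n₁ → F) (y : Fin n₂ → F) :
    (A ⊗ₖ B) *ᵥ (fun a => x a.1 * y a.2) = fun a => (A *ᵥ x) a.1 * (B *ᵥ y) a.2 := by
  funext a
  simp only [Matrix.mulVec, dotProduct, Matrix.kroneckerMap_apply, Fintype.sum_mul_sum,
    Fintype.sum_prod_type]
  exact Finset.sum_congr rfl fun i _ => Finset.sum_congr rfl fun j _ => by ring

/-- The elements of the stabiliser act factorwise on pure tensors. -/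
lemma mem_iff (g : GL ι F) :
    g ∈ Cfsg.Geo.tensorProductSubgroup n₁ n₂ e P ↔
      ∃ (a : GL (Fin n₁) F) (b : GL (Fin n₂) F),
        ∀ x y, ap g (pt e P x y) = pt e P (ap a x) (ap b y) := by
  have key : ∀ (k : GL (Fin n₁ × Fin n₂) F) (z : Fin n₁ × Fin n₂ → F),
      ap (P * Cfsg.Geo.glReindex e.symm k * P⁻¹) (coords e P z) = coords e P (ap k z) := by
    intro k z
    rw [coords_apply, coords_apply, ap_mul, ap_mul, ap_inv_ap]
    congr 1
    funext i
    simp only [ap_def, Cfsg.Geo.glReindex, Function.comp_apply, Matrix.mulVec, dotProduct]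
    exact Equiv.sum_comp e fun l => (k : Matrix _ _ F) (e i) l * z l
  constructor
  · rintro ⟨r, ⟨k, ⟨a, b, hk⟩, rfl⟩, rfl⟩
    refine ⟨a, b, fun x y => ?_⟩
    rw [pt, pt, show (MulAut.conj P).toMonoidHom ((Cfsg.Geo.glReindex e.symm).toMonoidHom k) =
      P * Cfsg.Geo.glReindex e.symm k * P⁻¹ from rfl, key]
    congr 1
    rw [ap_def, hk, kronecker_mulVec]
    rfl
  · rintro ⟨a, b, h⟩
    let k : GL (Fin n₁ × Fin n₂) F :=
      { val := (a : Matrix _ _ F) ⊗ₖ (b : Matrix _ _ F)
        inv := ((a⁻¹ : GL (Fin n₁) F) : Matrix _ _ F) ⊗ₖ ((b⁻¹ : GL (Fin n₂) F) : Matrix _ _ F)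
        val_inv := by
          rw [← Matrix.mul_kronecker_mul, ← Units.val_mul, ← Units.val_mul, mul_inv_cancel,
            mul_inv_cancel, Units.val_one, Units.val_one, Matrix.one_kronecker_one]
        inv_val := by
          rw [← Matrix.mul_kronecker_mul, ← Units.val_mul, ← Units.val_mul, inv_mul_cancel,
            inv_mul_cancel, Units.val_one, Units.val_one, Matrix.one_kronecker_one] }
    refine ⟨Cfsg.Geo.glReindex e.symm k, ⟨k, ⟨a, b, rfl⟩, rfl⟩, ?_⟩
    change P * Cfsg.Geo.glReindex e.symm k * P⁻¹ = g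
    have hlin : (apEquiv (P * Cfsg.Geo.glReindex e.symm k * P⁻¹)).toLinearMap.comp
        (coords e P).toLinearMap = (apEquiv g).toLinearMap.comp (coords e P).toLinearMap := by
      refine LinearMap.pi_ext' fun c => LinearMap.ext_ring ?_
      simp only [LinearMap.comp_apply, LinearEquiv.coe_coe, apEquiv_apply, LinearMap.single_apply]
      rw [key, ← pt_single, h, pt]
      congr 1
      have : (Pi.single c (1 : F)) = fun d : Fin n₁ × Fin n₂ =>
          (Pi.single c.1 1 : Fin n₁ → F) d.1 * (Pi.single c.2 1 : Fin n₂ → F) d.2 :=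
        (coords e P).injective (pt_single e P c).symm
      rw [this, ap_def]
      exact kronecker_mulVec _ _ _ _
    refine gl_ext fun x => ?_
    obtain ⟨z, rfl⟩ := (coords e P).surjective x
    exact LinearMap.congr_fun hlin z

/-- Exchanging the factors. -/
lemma pt_swap (x : Fin n₁ → F) (y : Fin n₂ → F) :
    pt (e.trans (Equiv.prodComm _ _)) P y x = pt e P x y := by
  simp only [pt, coords_apply]
  exact congrArg _ (funext fun i => mul_comm _ _)

lemma tensorProductSubgroup_swap :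
    Cfsg.Geo.tensorProductSubgroup n₂ n₁ (e.trans (Equiv.prodComm _ _)) P =
      Cfsg.Geo.tensorProductSubgroup n₁ n₂ e P := by
  ext g
  rw [mem_iff, mem_iff]
  constructor
  · rintro ⟨a, b, h⟩
    exact ⟨b, a, fun x y => by rw [← pt_swap, h, pt_swap]⟩
  · rintro ⟨a, b, h⟩
    exact ⟨b, a, fun x y => by rw [pt_swap, h, pt_swap]⟩

variable {e P}

/-- An element of the stabiliser trivial on one slice, fixing a vector of another slice, is
trivial on that one. -/
lemma eq_of_fix {g : GL ι F} (hg : g ∈ Cfsg.Geo.tensorProductSubgroup n₁ n₂ e P)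
    {u u' : Fin n₁ → F} (hu' : u' ≠ 0) {z : Fin n₂ → F} (hz : z ≠ 0)
    (h1 : ∀ y, ap g (pt e P u' y) = pt e P u' y) (h2 : ap g (pt e P u z) = pt e P u z)
    (y : Fin n₂ → F) : ap g (pt e P u y) = pt e P u y := by
  obtain ⟨a, b, h⟩ := (mem_iff e P g).mp hg
  obtain ⟨j, hj⟩ := Function.ne_iff.mp hu'
  simp only [Pi.zero_apply] at hj
  set κ := ap a u' j / u' j with hκ
  have hb : ∀ y, κ • ap b y = y := by
    intro y
    funext l
    have := congrFun ((coords e P).injective ((h u' y).symm.trans (h1 y))) (j, l)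
    simp only [Pi.smul_apply, smul_eq_mul, hκ] at this ⊢
    field_simp
    linear_combination this
  have hκ0 : κ ≠ 0 := fun h0 => hz (by rw [← hb z, h0, zero_smul])
  have hb' : ∀ y, ap b y = κ⁻¹ • y := fun y => by
    conv_rhs => rw [← hb y, smul_smul, inv_mul_cancel₀ hκ0, one_smul]
  have ha : ap a u = κ • u := by
    have h3 := (h u z).symm.trans h2
    rw [hb', pt_smul_right, ← pt_smul_left] at h3
    have h4 := congrArg (κ • ·) (pt_inj_left e P hz h3)
    rwa [smul_smul, mul_inv_cancel₀ hκ0, one_smul] at h4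
  rw [h, ha, hb', pt_smul_left, pt_smul_right, smul_smul, mul_inv_cancel₀ hκ0, one_smul]

variable (e P)

/-- The forms on pure tensors multiply. -/
lemma form_pt {σ : F →+* F} {f : (ι → F) → (ι → F) → F}
    {f₁ : (Fin n₁ → F) → (Fin n₁ → F) → F} {f₂ : (Fin n₂ → F) → (Fin n₂ → F) → F}
    (h₁ : ∀ x x', f₁ x x' = Cfsg.Geo.formOfGram σ (Cfsg.Geo.gramMatrix f₁) x x')
    (h₂ : ∀ y y', f₂ y y' = Cfsg.Geo.formOfGram σ (Cfsg.Geo.gramMatrix f₂) y y')
    (hT : Cfsg.Geo.IsTensorFormStructure σ f f₁ f₂ e P) :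
    ∃ c : F, c ≠ 0 ∧ ∀ x x' y y', f (pt e P x y) (pt e P x' y') = c * (f₁ x x' * f₂ y y') := by
  obtain ⟨c, hc, h⟩ := hT
  refine ⟨c, hc, fun x x' y y' => ?_⟩
  rw [pt, pt, coords_apply, coords_apply, ap_def, ap_def, h, h₁, h₂]
  congr 1
  simp only [Cfsg.Geo.formOfGram, Fintype.sum_prod_type, Matrix.kroneckerMap_apply, map_mul,
    Fintype.sum_mul_sum]
  refine Finset.sum_congr rfl fun i _ => Finset.sum_congr rfl fun j _ =>
    Finset.sum_congr rfl fun k _ => Finset.sum_congr rfl fun l _ => by ring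

/-- The decomposition attached to a basis of the first factor. -/
def slices (U : Fin n₁ → Fin n₁ → F) (i : Fin n₁) : Submodule F (ι → F) :=
  LinearMap.range (ptr e P (U i))

lemma mem_slices {U : Fin n₁ → Fin n₁ → F} {i : Fin n₁} {v : ι → F} :
    v ∈ slices e P U i ↔ ∃ y, pt e P (U i) y = v := Iff.rfl

/-- Permuting the lines of the basis permutes the slices. -/
lemma mem_decompStab {U : Fin n₁ → Fin n₁ → F} (π : Equiv.Perm (Fin n₁)) {g : GL ι F}
    {a : GL (Fin n₁) F} {b : GL (Fin n₂) F}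
    (h : ∀ x y, ap g (pt e P x y) = pt e P (ap a x) (ap b y))
    (hπ : ∀ i, ∃ r : F, r ≠ 0 ∧ ap a (U i) = r • U (π i)) :
    g ∈ Cfsg.Geo.decompositionStabilizer (slices e P U) := by
  refine ⟨π, fun i => ?_⟩
  obtain ⟨r, hr, hri⟩ := hπ i
  ext v
  rw [Submodule.mem_map]
  simp only [mem_slices]
  constructor
  · rintro ⟨_, ⟨y, rfl⟩, rfl⟩
    refine ⟨r • ap b y, ?_⟩
    rw [Matrix.toLin'_apply, ← ap_def, h, hri, pt_smul_left, pt_smul_right]
  · rintro ⟨y, rfl⟩
    refine ⟨_, ⟨ap b⁻¹ (r⁻¹ • y), rfl⟩, ?_⟩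
    rw [Matrix.toLin'_apply, ← ap_def, h, hri, pt_smul_left, ap_ap_inv, pt_smul_right, smul_smul,
      mul_inv_cancel₀ hr, one_smul]

end Tensor

end CfsgLib.Geometric
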